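import Cfsg.Agent.Lib.Helper32.FM.Defs

set_option autoImplicit false

namespace Cfsg.Agent.Lib.Helper32.FM

open Cfsg.Agent.Lib.Helper25.FrF

variable {S : Type*} [Group S] [Finite S] {E : Type*} [AddCommGroup E] [Module (ZMod 2) E] [Finite E]

/-- between `L` and `V` (prime relative index) there is nothing -/
theorem AB1_between {Y : Type*} [Group Y] {p : ℕ} (hp : p.Prime) {L C V : Subgroup Y} (hLC : L ≤ C) (hCV : C ≤ V)
    (hidx : L.relIndex V = p) : C ≤ L ∨ V ≤ C := by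
  have h1 := Subgroup.relIndex_mul_relIndex L C V hLC hCV
  rw [hidx] at h1
  rcases (Nat.dvd_prime hp).mp ⟨_, h1.symm⟩ with h2 | h2
  · exact Or.inl (Subgroup.relIndex_eq_one.mp h2)
  · right
    rw [h2] at h1
    have h3 : C.relIndex V = 1 := by
      have := hp.pos
      nlinarith [Nat.eq_of_mul_eq_mul_left this (h1.trans (mul_one p).symm)]
    exact Subgroup.relIndex_eq_one.mp h3

/-- the elements of `V` which `k` centralises modulo `L` -/
def AB1_C {Y : Type*} [Group Y] (V L : Subgroup Y) (hVn : V.Normal) (hVab : ∀ a ∈ V, ∀ b ∈ V, a * b = b * a)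
    (k : Y) : Subgroup Y where
  carrier := {v | v ∈ V ∧ k * v * k⁻¹ * v⁻¹ ∈ L}
  one_mem' := ⟨one_mem _, by simp⟩
  mul_mem' := by
    rintro a b ⟨ha, ha'⟩ ⟨hb, hb'⟩
    refine ⟨mul_mem ha hb, ?_⟩
    have hka : k * a * k⁻¹ ∈ V := hVn.conj_mem a ha k
    have hkb : k * b * k⁻¹ ∈ V := hVn.conj_mem b hb k
    have h1 : k * (a * b) * k⁻¹ * (a * b)⁻¹ = (k * a * k⁻¹) * ((k * b * k⁻¹ * b⁻¹) * a⁻¹) := by group
    have h2 := hVab _ (mul_mem hkb (inv_mem hb)) _ (inv_mem ha)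
    rw [h1, h2]
    have h3 : k * a * k⁻¹ * (a⁻¹ * (k * b * k⁻¹ * b⁻¹)) = (k * a * k⁻¹ * a⁻¹) * (k * b * k⁻¹ * b⁻¹) := by group
    rw [h3]
    exact mul_mem ha' hb'
  inv_mem' := by
    rintro a ⟨ha, ha'⟩
    refine ⟨inv_mem ha, ?_⟩
    have hka : k * a * k⁻¹ ∈ V := hVn.conj_mem a ha k
    have h1 : k * a⁻¹ * k⁻¹ * a⁻¹⁻¹ = (k * a * k⁻¹)⁻¹ * a := by group
    have h2 := hVab _ (inv_mem hka) _ ha
    have h3 : a * (k * a * k⁻¹)⁻¹ = (k * a * k⁻¹ * a⁻¹)⁻¹ := by group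
    rw [h1, h2, h3]
    exact inv_mem ha'

/-- the Frobenius configuration in the quotient `A = Y ⧸ ker τ`.  `V_τ = {v ∈ V | τ v = 1}` contains `L`, is not `V` (`hfix`, `W ≠ 0`), and
`L` has prime index in `V`, so `V_τ = L`.  fpf: if `mk k` commutes with `mk v` then `τ (k v k⁻¹ v⁻¹) = 1`, so `k v k⁻¹ v⁻¹ ∈ L`; if `v ∉ L` then
`V = L ⟨v⟩` and `k` centralises `V / L` (`V` abelian, `K` normalises `L`), so `τ k = 1` by `hR`.  `|F|` divides `|V|`... use: `F` is a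
quotient of `V / L`, of order `p`, odd.  -/
theorem FH_quot {Y : Type*} [Group Y] [Finite Y] {W : Type*} [AddCommGroup W] [Module (ZMod 2) W] [Finite W]
    [Nontrivial W] (τ : Representation (ZMod 2) Y W) (p : ℕ) (hp : p.Prime) (hp2 : p ≠ 2)
    (V L K : Subgroup Y) (hVn : V.Normal) (hLV : L ≤ V) (hVab : ∀ a ∈ V, ∀ b ∈ V, a * b = b * a)
    (hidx : L.relIndex V = p) (hKL : ∀ k ∈ K, ∀ l ∈ L, k * l * k⁻¹ ∈ L)
    (hL : ∀ l ∈ L, τ l = 1) (hR : ∀ k ∈ K, (∀ v ∈ V, k * v * k⁻¹ * v⁻¹ ∈ L) → τ k = 1)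
    (hfix : ∀ w : W, (∀ v ∈ V, τ v w = w) → w = 0) :
    FH (qrep τ) (qim τ V) (qim τ K) := by
  classical
  -- the kernel of `τ` on `V` is `L`
  have hker : MonoidHom.ker τ ⊓ V = L := by
    apply le_antisymm
    · rcases AB1_between hp (C := MonoidHom.ker τ ⊓ V) (le_inf (fun l hl => hL l hl) hLV) inf_le_right hidx with h1 | h1
      · exact h1
      · exfalso
        obtain ⟨w, hw⟩ := exists_ne (0 : W)
        apply hw
        apply hfix
        intro v hv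
        have : τ v = 1 := (h1 hv).1
        rw [this]; rfl
    · exact le_inf (fun l hl => hL l hl) hLV
  have hmk1 : ∀ y : Y, (QuotientGroup.mk y : Y ⧸ MonoidHom.ker τ) = 1 ↔ τ y = 1 := by
    intro y
    rw [QuotientGroup.eq_one_iff]; exact MonoidHom.mem_ker
  refine ⟨?_, ?_, ?_, ?_, ?_⟩
  · exact Subgroup.Normal.map hVn _ (QuotientGroup.mk'_surjective _)
  · letI : CommGroup ↥(qim τ V) :=
      { (inferInstance : Group ↥(qim τ V)) with
        mul_comm := by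
          rintro ⟨_, a, ha, rfl⟩ ⟨_, b, hb, rfl⟩
          apply Subtype.ext
          show (QuotientGroup.mk' (MonoidHom.ker τ)) a * (QuotientGroup.mk' (MonoidHom.ker τ)) b =
            (QuotientGroup.mk' (MonoidHom.ker τ)) b * (QuotientGroup.mk' (MonoidHom.ker τ)) a
          rw [← map_mul, ← map_mul, hVab a ha b hb] }
    exact CommGroup.isNilpotent
  · rintro _ ⟨k, hk, rfl⟩ hk1 _ ⟨v, hv, rfl⟩ hcomm
    by_contra hv1
    apply hk1
    have hk1' : τ k = 1 := by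
      apply hR k hk
      have hvL : v ∉ L := fun hvL => hv1 ((hmk1 v).mpr (hL v hvL))
      have hc : τ (k * v * k⁻¹ * v⁻¹) = 1 := by
        rw [← hmk1]
        have h1 : (QuotientGroup.mk (k * v * k⁻¹ * v⁻¹) : Y ⧸ MonoidHom.ker τ) =
          ((QuotientGroup.mk' (MonoidHom.ker τ)) k * (QuotientGroup.mk' (MonoidHom.ker τ)) v) *
            ((QuotientGroup.mk' (MonoidHom.ker τ)) k)⁻¹ * ((QuotientGroup.mk' (MonoidHom.ker τ)) v)⁻¹ := rfl
        rw [h1, hcomm]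
        group
      have hcL : k * v * k⁻¹ * v⁻¹ ∈ L := by
        rw [← hker]
        exact Subgroup.mem_inf.mpr ⟨hc, V.mul_mem (hVn.conj_mem v hv k) (V.inv_mem hv)⟩
      have hvC : v ∈ AB1_C V L hVn hVab k := ⟨hv, hcL⟩
      have hLC : L ≤ AB1_C V L hVn hVab k := fun l hl => ⟨hLV hl, mul_mem (hKL k hk l hl) (inv_mem hl)⟩
      have hCV : AB1_C V L hVn hVab k ≤ V := fun x hx => hx.1
      rcases AB1_between hp hLC hCV hidx with h1 | h1
      · exact absurd (h1 hvC) hvL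
      · exact fun v' hv' => (h1 hv').2
    exact (hmk1 k).mpr hk1'
  · have h1 : Nat.card ↥(qim τ V) = p := by
      have h2 := Subgroup.relIndex_ker (K := V) (QuotientGroup.mk' (MonoidHom.ker τ))
      rw [QuotientGroup.ker_mk', ← Subgroup.inf_relIndex_right, hker, hidx] at h2
      exact h2.symm
    rw [h1]
    intro h0
    rw [ZMod.natCast_eq_zero_iff] at h0
    exact hp2 ((Nat.prime_dvd_prime_iff_eq Nat.prime_two hp).mp h0).symm
  · intro w hw
    apply hfix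
    intro v hv
    exact hw (QuotientGroup.mk v) ⟨v, hv, rfl⟩

end Cfsg.Agent.Lib.Helper32.FM
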