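import Cfsg.Agent.Lib.Helper32.FM.Defs

set_option autoImplicit false

namespace Cfsg.Agent.Lib.Helper32.FM

open Cfsg.Agent.Lib.Helper25.FrF

variable {S : Type*} [Group S] [Finite S] {E : Type*} [AddCommGroup E] [Module (ZMod 2) E] [Finite E]

/-- the image of `T` has index `≥ 3` in the image of `K`: the image of `x` is not `1` (otherwise `τ (x v x⁻¹ v⁻¹) = 1` for all `v ∈ V`; as in AB1
`{v ∈ V | τ v = 1} = L`, contradiction with `hx`), so it has order `q`; the image of `T` is a 2-group; so `q` divides the index. -/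
theorem relIndex_ge {Y : Type*} [Group Y] [Finite Y] {W : Type*} [AddCommGroup W] [Module (ZMod 2) W] [Finite W]
    [Nontrivial W] (τ : Representation (ZMod 2) Y W) (p q : ℕ) (hp : p.Prime) (hq : q.Prime) (hq2 : q ≠ 2)
    (V L K T : Subgroup Y) (hVn : V.Normal) (hLV : L ≤ V) (hidx : L.relIndex V = p)
    (hTK : T ≤ K) (hT : IsPGroup 2 ↥T)
    (hx : ∃ x ∈ K, orderOf x = q ∧ ∃ v ∈ V, x * v * x⁻¹ * v⁻¹ ∉ L)
    (hL : ∀ l ∈ L, τ l = 1) (hfix : ∀ w : W, (∀ v ∈ V, τ v w = w) → w = 0) :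
    3 ≤ (qim τ T).relIndex (qim τ K) := by
  obtain ⟨x, hxK, hxq, v, hv, hvL⟩ := hx
  -- the kernel meets `V` in `L`
  have hML : MonoidHom.ker τ ⊓ V ≤ L := by
    have h1 : L ≤ MonoidHom.ker τ ⊓ V := le_inf (fun l hl => MonoidHom.mem_ker.2 (hL l hl)) hLV
    have h2 := Subgroup.relIndex_mul_relIndex L (MonoidHom.ker τ ⊓ V) V h1 inf_le_right
    rw [hidx] at h2
    have h3 : (MonoidHom.ker τ ⊓ V).relIndex V ∣ p := Dvd.intro_left _ h2
    rcases (Nat.dvd_prime hp).1 h3 with h4 | h4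
    · exfalso
      have h5 : V ≤ MonoidHom.ker τ ⊓ V := Subgroup.relIndex_eq_one.1 h4
      obtain ⟨w, hw⟩ := exists_ne (0 : W)
      apply hw
      apply hfix
      intro u hu
      have := MonoidHom.mem_ker.1 (h5 hu).1
      rw [this, Module.End.one_apply]
    · rw [h4] at h2
      have h5 : L.relIndex (MonoidHom.ker τ ⊓ V) = 1 := by
        have hp0 := hp.pos
        nlinarith [Nat.eq_of_mul_eq_mul_right hp0 (by rw [h2, one_mul] :
          L.relIndex (MonoidHom.ker τ ⊓ V) * p = 1 * p)]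
      exact Subgroup.relIndex_eq_one.1 h5
  have hxN : x ∉ MonoidHom.ker τ := by
    intro hxN
    apply hvL
    apply hML
    refine Subgroup.mem_inf.2 ⟨?_, ?_⟩
    · have hn : (MonoidHom.ker τ).Normal := inferInstance
      have h1 : v * x⁻¹ * v⁻¹ ∈ MonoidHom.ker τ := hn.conj_mem _ (inv_mem hxN) v
      have h2 := mul_mem hxN h1
      have e : x * v * x⁻¹ * v⁻¹ = x * (v * x⁻¹ * v⁻¹) := by group
      rw [e]; exact h2
    · exact V.mul_mem (hVn.conj_mem v hv x) (V.inv_mem hv)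
  -- the image of `x`
  have hxb : (QuotientGroup.mk' (MonoidHom.ker τ)) x ∈ qim τ K := Subgroup.mem_map_of_mem _ hxK
  have hord : orderOf ((QuotientGroup.mk' (MonoidHom.ker τ)) x) = q := by
    have : Fact q.Prime := ⟨hq⟩
    apply orderOf_eq_prime
    · rw [← map_pow, ← hxq, pow_orderOf_eq_one, map_one]
    · intro h
      apply hxN
      exact (QuotientGroup.eq_one_iff x).1 h
  have hq1 : q ∣ Nat.card ↥(qim τ K) := by
    have := orderOf_dvd_natCard (⟨_, hxb⟩ : ↥(qim τ K))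
    rw [Subgroup.orderOf_mk, hord] at this
    exact this
  have hle : qim τ T ≤ qim τ K := Subgroup.map_mono hTK
  have hmul : (qim τ T).relIndex (qim τ K) * Nat.card ↥(qim τ T) = Nat.card ↥(qim τ K) := by
    have := Subgroup.relIndex_mul_relIndex ⊥ (qim τ T) (qim τ K) bot_le hle
    rw [Subgroup.relIndex_bot_left, Subgroup.relIndex_bot_left] at this
    rw [mul_comm]; exact this
  have hT' : IsPGroup 2 ↥(qim τ T) := hT.map _
  obtain ⟨n, hn⟩ := IsPGroup.iff_card.1 hT'
  have hcop : Nat.Coprime q (Nat.card ↥(qim τ T)) := by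
    rw [hn]
    apply Nat.Coprime.pow_right
    exact (Nat.coprime_primes hq Nat.prime_two).2 hq2
  have hq3 : q ∣ (qim τ T).relIndex (qim τ K) := by
    rw [← hmul] at hq1
    exact hcop.dvd_of_dvd_mul_right hq1
  have hne : (qim τ T).relIndex (qim τ K) ≠ 0 := by
    intro h0
    rw [h0, zero_mul] at hmul
    exact Nat.card_pos.ne hmul
  have h3 : 3 ≤ q := by
    have := hq.two_le
    omega
  exact h3.trans (Nat.le_of_dvd (Nat.pos_of_ne_zero hne) hq3)

end Cfsg.Agent.Lib.Helper32.FM
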