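import Cfsg.Agent.Lib.Helper32.FM.Defs

set_option autoImplicit false

namespace Cfsg.Agent.Lib.Helper32.FM

open Cfsg.Agent.Lib.Helper25.FrF

variable {S : Type*} [Group S] [Finite S] {E : Type*} [AddCommGroup E] [Module (ZMod 2) E] [Finite E]

/-- free module ⇒ many fixed vectors.  `W = ⊕_{h ∈ H} h W₀`, `W₀ ≠ 0`; pick `0 ≠ w ∈ W₀` and `h₁, h₂, h₃ ∈ H` in three different
right cosets `T h_i`; the vectors `f_i = ∑_{t ∈ T} τ (t h_i) w` are fixed by `T` and linearly independent. -/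
theorem free_fixed {A : Type*} [Group A] [Finite A] {W : Type*} [AddCommGroup W] [Module (ZMod 2) W] [Finite W]
    [Nontrivial W] (τ : Representation (ZMod 2) A W) (H T : Subgroup A) (hTH : T ≤ H) (hfr : Fr τ H ⊤)
    (h3 : 3 ≤ T.relIndex H) : 8 ≤ Nat.card ↥(fixS τ T) := by
  classical
  have : Fact (Nat.Prime 2) := ⟨Nat.prime_two⟩
  obtain ⟨W₀, hind, hsup⟩ := hfr
  have hW0 : W₀ ≠ ⊥ := by
    intro hb
    rw [hb] at hsup
    simp only [Submodule.map_bot, iSup_bot] at hsup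
    exact bot_ne_top hsup
  obtain ⟨w, hw, hw0⟩ := (Submodule.ne_bot_iff _).mp hW0
  have := Fintype.ofFinite ↥H
  let v : ↥H → W := fun h => τ (h : A) w
  have hinj : ∀ a : A, Function.Injective (τ a) := by
    intro a x y hxy
    have h1 : τ a⁻¹ (τ a x) = τ a⁻¹ (τ a y) := by rw [hxy]
    have h2 : ∀ z, τ a⁻¹ (τ a z) = z := by
      intro z
      rw [← Module.End.mul_apply, ← map_mul, inv_mul_cancel, map_one, Module.End.one_apply]
    rwa [h2, h2] at h1
  have hv0 : ∀ h, v h ≠ 0 := by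
    intro h hh
    apply hw0
    apply hinj (h : A)
    rw [map_zero]; exact hh
  have hlin : LinearIndependent (ZMod 2) v :=
    hind.linearIndependent _ (fun h => Submodule.mem_map_of_mem hw) hv0
  rw [Fintype.linearIndependent_iff] at hlin
  let T' : Subgroup ↥H := T.subgroupOf H
  let F : ((↥H ⧸ T') → ZMod 2) → W := fun φ => ∑ h : ↥H, φ (QuotientGroup.mk h⁻¹) • v h
  have hfix : ∀ φ, F φ ∈ fixS τ T := by
    intro φ t ht
    show τ t (∑ h : ↥H, φ (QuotientGroup.mk h⁻¹) • v h) = ∑ h : ↥H, φ (QuotientGroup.mk h⁻¹) • v h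
    rw [map_sum]
    let t' : ↥H := ⟨t, hTH ht⟩
    rw [← Equiv.sum_comp (Equiv.mulLeft t') (fun h : ↥H => φ (QuotientGroup.mk h⁻¹) • v h)]
    apply Finset.sum_congr rfl
    intro h _
    rw [map_smul]
    have h1 : (QuotientGroup.mk ((Equiv.mulLeft t') h)⁻¹ : ↥H ⧸ T') = QuotientGroup.mk h⁻¹ := by
      rw [QuotientGroup.eq]
      show ((t' * h)⁻¹)⁻¹ * h⁻¹ ∈ T'
      have : ((t' * h)⁻¹)⁻¹ * h⁻¹ = t' := by group
      rw [this]
      exact Subgroup.mem_subgroupOf.mpr ht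
    rw [h1]
    congr 1
    show τ t (τ (h : A) w) = τ ((t' * h : ↥H) : A) w
    rw [Subgroup.coe_mul, map_mul, Module.End.mul_apply]
  have hFinj : Function.Injective (fun φ => (⟨F φ, hfix φ⟩ : ↥(fixS τ T))) := by
    intro φ ψ hφψ
    have h1 : F φ = F ψ := congrArg Subtype.val hφψ
    have h2 : ∑ h : ↥H, (φ (QuotientGroup.mk h⁻¹) - ψ (QuotientGroup.mk h⁻¹)) • v h = 0 := by
      simp only [sub_smul, Finset.sum_sub_distrib]
      exact sub_eq_zero.mpr h1
    have h3 := hlin _ h2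
    funext x
    obtain ⟨a, rfl⟩ := QuotientGroup.mk_surjective x
    have h4 := h3 a⁻¹
    rw [inv_inv] at h4
    exact sub_eq_zero.mp h4
  have hcard := Nat.card_le_card_of_injective _ hFinj
  rw [Nat.card_fun, Nat.card_zmod] at hcard
  have hidx : Nat.card (↥H ⧸ T') = T.relIndex H := rfl
  rw [hidx] at hcard
  calc 8 = 2 ^ 3 := by norm_num
    _ ≤ 2 ^ T.relIndex H := Nat.pow_le_pow_right (by norm_num) h3
    _ ≤ _ := hcard

end Cfsg.Agent.Lib.Helper32.FM
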