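import Cfsg.Agent.Lib.Helper32.FM.Defs
import Cfsg.Agent.Lib.Helper32.FM.AB1
import Cfsg.Agent.Lib.Helper32.FM.AB3
import Cfsg.Agent.Lib.Helper32.FM.P1

set_option autoImplicit false

namespace Cfsg.Agent.Lib.Helper32.FM

open Cfsg.Agent.Lib.Helper25.FrF

variable {S : Type*} [Group S] [Finite S] {E : Type*} [AddCommGroup E] [Module (ZMod 2) E] [Finite E]

/-- ASSEMBLY (imports AB1 AB3 P1): `main_T` of helper25 applied to `FH_quot` gives `Fr (qrep τ) (qim τ K) ⊤`; `free_fixed` + `relIndex_ge` give 8 fixed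
vectors of the image of `T`; these are the fixed vectors of `T` (`qrep_mk`). -/
theorem AB {Y : Type*} [Group Y] [Finite Y] {W : Type*} [AddCommGroup W] [Module (ZMod 2) W] [Finite W]
    [Nontrivial W] (τ : Representation (ZMod 2) Y W) (p q : ℕ) (hp : p.Prime) (hp2 : p ≠ 2) (hq : q.Prime) (hq2 : q ≠ 2)
    (V L K T : Subgroup Y) (hVn : V.Normal) (hLV : L ≤ V) (hVab : ∀ a ∈ V, ∀ b ∈ V, a * b = b * a)
    (hidx : L.relIndex V = p) (hKL : ∀ k ∈ K, ∀ l ∈ L, k * l * k⁻¹ ∈ L) (hTK : T ≤ K) (hT : IsPGroup 2 ↥T)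
    (hx : ∃ x ∈ K, orderOf x = q ∧ ∃ v ∈ V, x * v * x⁻¹ * v⁻¹ ∉ L)
    (hL : ∀ l ∈ L, τ l = 1) (hR : ∀ k ∈ K, (∀ v ∈ V, k * v * k⁻¹ * v⁻¹ ∈ L) → τ k = 1)
    (hfix : ∀ w : W, (∀ v ∈ V, τ v w = w) → w = 0) :
    8 ≤ Nat.card ↥(fixS τ T) := by
  haveI : Fact (Nat.Prime 2) := ⟨Nat.prime_two⟩
  haveI : FiniteDimensional (ZMod 2) W := Module.Finite.of_finite
  have hFH := FH_quot τ p hp hp2 V L K hVn hLV hVab hidx hKL hL hR hfix
  have hFr : Fr (qrep τ) (qim τ K) ⊤ :=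
    main_T (qim τ V) (qim τ K) _ W (qrep τ) rfl hFH
  have h3 := relIndex_ge τ p q hp hq hq2 V L K T hVn hLV hidx hTK hT hx hL hfix
  have hTK' : qim τ T ≤ qim τ K := Subgroup.map_mono hTK
  have h8 := free_fixed (qrep τ) (qim τ K) (qim τ T) hTK' hFr h3
  have heq : fixS (qrep τ) (qim τ T) = fixS τ T := by
    ext w
    rw [mem_fixS, mem_fixS]
    constructor
    · intro h t ht
      have := h (QuotientGroup.mk t) (Subgroup.mem_map_of_mem _ ht)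
      simpa using this
    · rintro h z ⟨t, ht, rfl⟩
      exact h t ht
  rw [heq] at h8
  exact h8

end Cfsg.Agent.Lib.Helper32.FM
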