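import Cfsg.Agent.Lib.Helper32.FM.Defs

set_option autoImplicit false

namespace Cfsg.Agent.Lib.Helper32.FM

open Cfsg.Agent.Lib.Helper25.FrF

variable {S : Type*} [Group S] [Finite S] {E : Type*} [AddCommGroup E] [Module (ZMod 2) E] [Finite E]

/-- a `2`-group `T` stabilising a nonzero subspace `M` of a finite `ZMod 2`-space fixes a nonzero vector of `M`
(orbit counting: `|M|` is even, the fixed points of a 2-group are congruent to `|M|` mod 2, and `0` is fixed). -/
theorem exists_fixed_ne_zero (ρ : Representation (ZMod 2) S E) (T : Subgroup S) (hT : IsPGroup 2 ↥T)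
    (M : Submodule (ZMod 2) E) (hM : M ≠ ⊥) (hinv : ∀ t ∈ T, ∀ m ∈ M, ρ t m ∈ M) :
    ∃ f ∈ M, f ∈ fixS ρ T ∧ f ≠ 0 := by
  classical
  have : Fact (Nat.Prime 2) := ⟨Nat.prime_two⟩
  let act : MulAction ↥T ↥M :=
    { smul := fun t m => ⟨ρ (t : S) (m : E), hinv t t.2 m m.2⟩
      one_smul := by
        intro m
        apply Subtype.ext
        show ρ ((1 : ↥T) : S) (m : E) = m
        simp
      mul_smul := by
        intro a b m
        apply Subtype.ext
        show ρ ((a * b : ↥T) : S) (m : E) = ρ a (ρ b m)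
        simp }
  obtain ⟨m, hm, hm0⟩ := Submodule.exists_mem_ne_zero_of_ne_bot hM
  have h2 : 2 ∣ Nat.card ↥M := by
    have h3 : addOrderOf (⟨m, hm⟩ : ↥M) = 2 := by
      apply addOrderOf_eq_prime
      · exact ZModModule.char_nsmul_eq_zero 2 _
      · intro h
        exact hm0 (congrArg Subtype.val h)
    have h4 := addOrderOf_dvd_natCard (⟨m, hm⟩ : ↥M)
    rwa [h3] at h4
  have h0 : (0 : ↥M) ∈ MulAction.fixedPoints ↥T ↥M := by
    intro t
    apply Subtype.ext
    show ρ (t : S) ((0 : ↥M) : E) = _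
    simp
  obtain ⟨b, hb, hne⟩ := hT.exists_fixed_point_of_prime_dvd_card_of_fixed_point ↥M h2 h0
  refine ⟨b, b.2, ?_, ?_⟩
  · intro t ht
    have := hb ⟨t, ht⟩
    exact congrArg Subtype.val this
  · intro h
    exact hne (Subtype.ext h.symm)

end Cfsg.Agent.Lib.Helper32.FM
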