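import Cfsg.Agent.Lib.Helper32.FM.Defs

set_option autoImplicit false

namespace Cfsg.Agent.Lib.Helper32.FM

open Cfsg.Agent.Lib.Helper25.FrF

variable {S : Type*} [Group S] [Finite S] {E : Type*} [AddCommGroup E] [Module (ZMod 2) E] [Finite E]

open Classical in
/-- `eL ρ L f` as a sum over a filter -/
theorem I4_eL_apply [Fintype S] (ρ : Representation (ZMod 2) S E) (L : Subgroup S) (f : E) :
    eL ρ L f = ∑ v ∈ Finset.univ.filter (fun v : S => v ∈ L), ρ v f := by
  have : Fintype ↥L := Fintype.ofFinite _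
  rw [eL, finsum_eq_sum_of_fintype, LinearMap.sum_apply]
  exact (Finset.sum_subtype (Finset.univ.filter (fun v : S => v ∈ L)) (p := fun v => v ∈ L)
    (by intro x; simp) (fun v => ρ v f)).symm

open Classical in
theorem I4_split [Fintype S] {M : Type*} [AddCommMonoid M] (L : Subgroup S) (g : S → M) :
    ∑ v ∈ Finset.univ.filter (fun v : S => v ∈ L), g v =
      g 1 + ∑ v ∈ Finset.univ.filter (fun v : S => v ∈ L ∧ v ≠ 1), g v := by
  have h1 : (1 : S) ∈ Finset.univ.filter (fun v : S => v ∈ L) := by simp [L.one_mem]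
  rw [← Finset.add_sum_erase _ _ h1]
  congr 1
  apply Finset.sum_congr _ (fun _ _ => rfl)
  ext v
  simp only [Finset.mem_erase, Finset.mem_filter, Finset.mem_univ, true_and]
  tauto

open Classical in
theorem I4_fiber [Fintype S] {M : Type*} [AddCommMonoid M] {p : ℕ} (hp : p.Prime) (V : Subgroup S)
    (hexp : ∀ v ∈ V, v ^ p = 1) (g : S → M) :
    ∑ v ∈ Finset.univ.filter (fun v : S => v ∈ V ∧ v ≠ 1), g v =
      ∑ L ∈ (Set.toFinite (Pts V p)).toFinset,
        ∑ v ∈ Finset.univ.filter (fun v : S => v ∈ L ∧ v ≠ 1), g v := by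
  have : Fact p.Prime := ⟨hp⟩
  have hord : ∀ v ∈ V, v ≠ 1 → Nat.card (Subgroup.zpowers v) = p := by
    intro v hv hv1
    rw [Nat.card_zpowers]
    exact orderOf_eq_prime (hexp v hv) hv1
  have hmaps : ∀ v ∈ Finset.univ.filter (fun v : S => v ∈ V ∧ v ≠ 1),
      Subgroup.zpowers v ∈ (Set.toFinite (Pts V p)).toFinset := by
    intro v hv
    simp only [Finset.mem_filter, Finset.mem_univ, true_and] at hv
    rw [Set.Finite.mem_toFinset]
    exact ⟨by rw [Subgroup.zpowers_le]; exact hv.1, hord v hv.1 hv.2⟩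
  rw [← Finset.sum_fiberwise_of_maps_to hmaps]
  apply Finset.sum_congr rfl
  intro L hL
  rw [Set.Finite.mem_toFinset] at hL
  apply Finset.sum_congr _ (fun _ _ => rfl)
  ext v
  simp only [Finset.mem_filter, Finset.mem_univ, true_and]
  constructor
  · rintro ⟨⟨_, hv1⟩, hz⟩
    exact ⟨hz ▸ Subgroup.mem_zpowers v, hv1⟩
  · rintro ⟨hvL, hv1⟩
    refine ⟨⟨hL.1 hvL, hv1⟩, ?_⟩
    apply Subgroup.eq_of_le_of_card_ge
    · rw [Subgroup.zpowers_le]; exact hvL
    · rw [hord v (hL.1 hvL) hv1, hL.2]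

open Classical in
theorem I4_card [Fintype S] (L : Subgroup S) :
    (Finset.univ.filter (fun v : S => v ∈ L ∧ v ≠ 1)).card + 1 = Nat.card ↥L := by
  have h := I4_split L (fun _ => (1 : ℕ))
  simp only [Finset.sum_const, smul_eq_mul, mul_one] at h
  have h2 : (Finset.univ.filter (fun v : S => v ∈ L)).card = Nat.card ↥L := by
    rw [Nat.card_eq_fintype_card, Fintype.card_subtype]
  omega

/-- `∑_{L ∈ Pts} e_L f = (p+1) f + ∑_{1 ≠ v ∈ V} ρ v f = p f + ∑_{v ∈ V} ρ v f = f + 0`: every `1 ≠ v ∈ V` lies in exactly one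
subgroup of order `p` (`zpowers v`, since `v ^ p = 1`), and there are `p + 1` such subgroups (`p² - 1 = N (p - 1)`).
Hence a nonzero vector has nonempty support. -/
theorem exists_supp {ρ : Representation (ZMod 2) S E} {p q : ℕ} {V T Q : Subgroup S} (c : Cfg ρ p q V T Q)
    (hV : Nat.card ↥V = p ^ 2) (hexp : ∀ v ∈ V, v ^ p = 1) {f : E} (hf : f ≠ 0) :
    (supp ρ V p f).Nonempty := by
  classical
  by_contra hemp
  rw [Set.not_nonempty_iff_eq_empty] at hemp
  have h0 : ∀ L ∈ Pts V p, eL ρ L f = 0 := by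
    intro L hL
    by_contra hne
    have : L ∈ supp ρ V p f := ⟨hL, hne⟩
    rw [hemp] at this
    exact this
  have : Fintype S := Fintype.ofFinite S
  have h2f : ∀ x : E, x + x = 0 := by
    intro x
    have : (2 : ZMod 2) • x = 0 := by
      have h2 : (2 : ZMod 2) = 0 := by decide
      rw [h2, zero_smul]
    rwa [two_smul] at this
  set N := (Set.toFinite (Pts V p)).toFinset.card with hN
  -- counting
  have hcount : p ^ 2 = N * (p - 1) + 1 := by
    have h1 := I4_fiber c.hp V hexp (fun _ => (1 : ℕ))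
    have h3 : ∀ L ∈ (Set.toFinite (Pts V p)).toFinset,
        ∑ v ∈ Finset.univ.filter (fun v : S => v ∈ L ∧ v ≠ 1), (1 : ℕ) = p - 1 := by
      intro L hL
      rw [Set.Finite.mem_toFinset] at hL
      have := I4_card L
      rw [hL.2] at this
      simp only [Finset.sum_const, smul_eq_mul, mul_one]
      omega
    rw [Finset.sum_congr rfl h3] at h1
    simp only [Finset.sum_const, smul_eq_mul, mul_one] at h1
    have h4 := I4_card V
    rw [hV] at h4
    rw [← h4, h1]
  have hNeven : Even N := by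
    have hp1 : 1 ≤ p := c.hp.one_lt.le
    obtain ⟨k, hk⟩ : ∃ k, p = k + 1 := ⟨p - 1, by omega⟩
    have hk0 : 0 < k := by
      have := c.hp.one_lt
      omega
    have h5 : N * k = (k + 2) * k := by
      rw [hk] at hcount
      simp only [Nat.add_sub_cancel] at hcount
      nlinarith
    have h6 : N = k + 2 := Nat.eq_of_mul_eq_mul_right hk0 h5
    have hodd : Odd p := c.hp.odd_of_ne_two c.hp2
    rw [h6]
    rw [hk] at hodd
    obtain ⟨m, hm⟩ := hodd
    exact ⟨m + 1, by omega⟩
  -- the vector identity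
  have hvec : ∑ v ∈ Finset.univ.filter (fun v : S => v ∈ V ∧ v ≠ 1), ρ v f = 0 := by
    rw [I4_fiber c.hp V hexp (fun v => ρ v f)]
    have h3 : ∀ L ∈ (Set.toFinite (Pts V p)).toFinset,
        ∑ v ∈ Finset.univ.filter (fun v : S => v ∈ L ∧ v ≠ 1), ρ v f = f := by
      intro L hL
      rw [Set.Finite.mem_toFinset] at hL
      have h4 := h0 L hL
      rw [I4_eL_apply, I4_split L (fun v => ρ v f), map_one, Module.End.one_apply] at h4
      have h5 := h2f f
      have : ∑ v ∈ Finset.univ.filter (fun v : S => v ∈ L ∧ v ≠ 1), ρ v f = -f :=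
        (neg_eq_of_add_eq_zero_right h4).symm
      rw [this]
      exact neg_eq_of_add_eq_zero_left h5
    rw [Finset.sum_congr rfl h3, Finset.sum_const, ← hN]
    obtain ⟨m, hm⟩ := hNeven
    rw [hm, add_smul, ← smul_add, h2f, smul_zero]
  have hg : eL ρ V f = f := by
    rw [I4_eL_apply, I4_split V (fun v => ρ v f), hvec, add_zero, map_one, Module.End.one_apply]
  apply hf
  apply c.fixV
  intro w hw
  have : Fintype ↥V := Fintype.ofFinite _
  have h7 : eL ρ V f = ∑ v : ↥V, ρ (v : S) f := by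
    rw [eL, finsum_eq_sum_of_fintype, LinearMap.sum_apply]
  nth_rewrite 1 [← hg]
  nth_rewrite 2 [← hg]
  rw [h7, map_sum]
  rw [← Equiv.sum_comp (Equiv.mulLeft (⟨w, hw⟩ : ↥V)) (fun v : ↥V => ρ (v : S) f)]
  apply Finset.sum_congr rfl
  intro v _
  simp only [Equiv.coe_mulLeft, Subgroup.coe_mul, map_mul, Module.End.mul_apply]

end Cfsg.Agent.Lib.Helper32.FM
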