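import Cfsg.Agent.Lib.Helper32.FM.Defs

set_option autoImplicit false

namespace Cfsg.Agent.Lib.Helper32.FM

open Cfsg.Agent.Lib.Helper25.FrF

variable {S : Type*} [Group S] [Finite S] {E : Type*} [AddCommGroup E] [Module (ZMod 2) E] [Finite E]

theorem I5_mem_cj {s x : S} {L : Subgroup S} : x ∈ cj s L ↔ s⁻¹ * x * s ∈ L := by
  unfold cj
  rw [Subgroup.mem_map]
  constructor
  · rintro ⟨l, hl, rfl⟩
    have : s⁻¹ * ((MulAut.conj s).toMonoidHom l) * s = l := by
      simp [MulAut.conj_apply, mul_assoc]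
    rw [this]
    exact hl
  · intro h
    refine ⟨s⁻¹ * x * s, h, ?_⟩
    simp [MulAut.conj_apply, mul_assoc]

/-- the bijection `L ≃ s L s⁻¹` -/
noncomputable def I5_equiv (s : S) (L : Subgroup S) : ↥L ≃ ↥(cj s L) where
  toFun l := ⟨s * l * s⁻¹, I5_mem_cj.mpr (by
    have : s⁻¹ * (s * (l : S) * s⁻¹) * s = l := by group
    rw [this]; exact l.2)⟩
  invFun x := ⟨s⁻¹ * x * s, I5_mem_cj.mp x.2⟩
  left_inv l := by
    apply Subtype.ext
    show s⁻¹ * (s * (l : S) * s⁻¹) * s = l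
    group
  right_inv x := by
    apply Subtype.ext
    show s * (s⁻¹ * (x : S) * s) * s⁻¹ = x
    group

theorem I5_eL_apply (ρ : Representation (ZMod 2) S E) (L : Subgroup S) (f : E) :
    eL ρ L f = ∑ᶠ l : ↥L, ρ (l : S) f := by
  classical
  haveI : Fintype ↥L := Fintype.ofFinite _
  unfold eL
  rw [finsum_eq_sum_of_fintype, finsum_eq_sum_of_fintype, LinearMap.sum_apply]

/-- equivariance: `ρ s ∘ e_L = e_{sLs⁻¹} ∘ ρ s` (reindex by `l ↦ s l s⁻¹`), and the fixed spaces move accordingly. -/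
theorem eL_conj (ρ : Representation (ZMod 2) S E) (s : S) (L : Subgroup S) (f : E) :
    ρ s (eL ρ L f) = eL ρ (cj s L) (ρ s f) := by
  classical
  haveI : Fintype ↥L := Fintype.ofFinite _
  rw [I5_eL_apply, I5_eL_apply, ← finsum_comp_equiv (I5_equiv s L), finsum_eq_sum_of_fintype,
    finsum_eq_sum_of_fintype, map_sum]
  apply Finset.sum_congr rfl
  intro l _
  show ρ s (ρ (l : S) f) = ρ (s * (l : S) * s⁻¹) (ρ s f)
  rw [← Module.End.mul_apply, ← Module.End.mul_apply, ← map_mul, ← map_mul]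
  congr 2
  group

theorem fixS_cj (ρ : Representation (ZMod 2) S E) (s : S) (L : Subgroup S) (f : E) :
    ρ s f ∈ fixS ρ (cj s L) ↔ f ∈ fixS ρ L := by
  rw [mem_fixS, mem_fixS]
  constructor
  · intro h l hl
    have h1 := h (s * l * s⁻¹) (I5_mem_cj.mpr (by
      have : s⁻¹ * (s * l * s⁻¹) * s = l := by group
      rw [this]; exact hl))
    have h2 : ρ (s * l * s⁻¹) (ρ s f) = ρ s (ρ l f) := by
      rw [← Module.End.mul_apply, ← Module.End.mul_apply, ← map_mul, ← map_mul]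
      congr 2
      group
    rw [h2] at h1
    have h3 : ρ s⁻¹ (ρ s (ρ l f)) = ρ s⁻¹ (ρ s f) := by rw [h1]
    simpa [← Module.End.mul_apply, ← map_mul] using h3
  · intro h x hx
    have h1 := h _ (I5_mem_cj.mp hx)
    have h2 : ρ x (ρ s f) = ρ s (ρ (s⁻¹ * x * s) f) := by
      rw [← Module.End.mul_apply, ← Module.End.mul_apply, ← map_mul, ← map_mul]
      congr 2
      group
    rw [h2, h1]

end Cfsg.Agent.Lib.Helper32.FM
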