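import Cfsg.Agent.Lib.Helper32.FM.Defs
import Cfsg.Agent.Lib.Helper32.FM.I5

set_option autoImplicit false

namespace Cfsg.Agent.Lib.Helper32.FM

open Cfsg.Agent.Lib.Helper25.FrF

variable {S : Type*} [Group S] [Finite S] {E : Type*} [AddCommGroup E] [Module (ZMod 2) E] [Finite E]

theorem SU1_cj_cj (s t : S) (L : Subgroup S) : cj s (cj t L) = cj (s * t) L := by
  ext x
  rw [I5_mem_cj, I5_mem_cj, I5_mem_cj]
  have : t⁻¹ * (s⁻¹ * x * s) * t = (s * t)⁻¹ * x * (s * t) := by group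
  rw [this]

theorem SU1_cj_one (L : Subgroup S) : cj 1 L = L := by
  ext x
  rw [I5_mem_cj]
  simp

theorem SU1_pts {V : Subgroup S} (hV : V.Normal) {p : ℕ} (s : S) {L : Subgroup S} (hL : L ∈ Pts V p) :
    cj s L ∈ Pts V p := by
  refine ⟨?_, ?_⟩
  · intro x hx
    have h1 := hL.1 (I5_mem_cj.mp hx)
    have h2 := hV.conj_mem _ h1 s
    have h3 : s * (s⁻¹ * x * s) * s⁻¹ = x := by group
    rwa [h3] at h2
  · rw [← Nat.card_congr (I5_equiv s L)]
    exact hL.2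

theorem SU1_inj (ρ : Representation (ZMod 2) S E) (s : S) {f : E} (h : ρ s f = 0) : f = 0 := by
  have h3 : ρ s⁻¹ (ρ s f) = ρ s⁻¹ 0 := by rw [h]
  simpa [← Module.End.mul_apply, ← map_mul] using h3

/-- `supp (ρ s f) = s · supp f` (from `eL_conj`; `cj s` maps `Pts V p` onto itself because `V` is normal). -/
theorem supp_smul {ρ : Representation (ZMod 2) S E} {p q : ℕ} {V T Q : Subgroup S} (c : Cfg ρ p q V T Q)
    (s : S) (f : E) : supp ρ V p (ρ s f) = cj s '' supp ρ V p f := by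
  ext L
  constructor
  · rintro ⟨hL, hne⟩
    refine ⟨cj s⁻¹ L, ⟨SU1_pts c.nV s⁻¹ hL, ?_⟩, ?_⟩
    · intro h0
      apply hne
      have h1 := eL_conj ρ s (cj s⁻¹ L) f
      rw [SU1_cj_cj, mul_inv_cancel, SU1_cj_one, h0, map_zero] at h1
      exact h1.symm
    · rw [SU1_cj_cj, mul_inv_cancel, SU1_cj_one]
  · rintro ⟨L', ⟨hL', hne⟩, rfl⟩
    refine ⟨SU1_pts c.nV s hL', ?_⟩
    rw [← eL_conj]
    intro h0
    exact hne (SU1_inj ρ s h0)

theorem Occ_cj {ρ : Representation (ZMod 2) S E} {p q : ℕ} {V T Q : Subgroup S} (c : Cfg ρ p q V T Q)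
    (s : S) {L : Subgroup S} (hL : L ∈ Occ ρ V p) : cj s L ∈ Occ ρ V p := by
  refine ⟨SU1_pts c.nV s hL.1, ?_⟩
  obtain ⟨f, hf, hf0⟩ := (Submodule.ne_bot_iff _).mp hL.2
  apply (Submodule.ne_bot_iff _).mpr
  refine ⟨ρ s f, (fixS_cj ρ s L f).mpr hf, ?_⟩
  intro h0
  exact hf0 (SU1_inj ρ s h0)

theorem cj_of_mem_V {ρ : Representation (ZMod 2) S E} {p q : ℕ} {V T Q : Subgroup S} (c : Cfg ρ p q V T Q)
    {v : S} (hv : v ∈ V) {L : Subgroup S} (hL : L ≤ V) : cj v L = L := by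
  ext x
  rw [I5_mem_cj]
  constructor
  · intro h
    have hxV : v⁻¹ * x * v ∈ V := hL h
    have hx : x ∈ V := by
      have h2 := V.mul_mem (V.mul_mem hv hxV) (V.inv_mem hv)
      have h3 : v * (v⁻¹ * x * v) * v⁻¹ = x := by group
      rwa [h3] at h2
    have h4 : v⁻¹ * x * v = x := by
      rw [mul_assoc, c.ab x hx v hv, ← mul_assoc, inv_mul_cancel, one_mul]
    rwa [h4] at h
  · intro h
    have hx : x ∈ V := hL h
    have h4 : v⁻¹ * x * v = x := by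
      rw [mul_assoc, c.ab x hx v hv, ← mul_assoc, inv_mul_cancel, one_mul]
    rwa [h4]

end Cfsg.Agent.Lib.Helper32.FM
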