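import Cfsg.Agent.Lib.Helper32.FM.Defs

set_option autoImplicit false

namespace Cfsg.Agent.Lib.Helper32.FM

open Cfsg.Agent.Lib.Helper25.FrF

variable {S : Type*} [Group S] [Finite S] {E : Type*} [AddCommGroup E] [Module (ZMod 2) E] [Finite E]

theorem I1_eL_apply (ρ : Representation (ZMod 2) S E) (L : Subgroup S) [Fintype ↥L] (f : E) :
    eL ρ L f = ∑ l : ↥L, ρ (l : S) f := by
  unfold eL
  rw [finsum_eq_sum_of_fintype, LinearMap.sum_apply]

/-- `eL ρ L f = ∑_{l ∈ L} ρ l f` is fixed by `L` (reindex the sum by `l ↦ h l`; use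
`finsum_eq_sum_of_fintype` after `have := Fintype.ofFinite ↥L`). -/
theorem eL_mem (ρ : Representation (ZMod 2) S E) (L : Subgroup S) (f : E) : eL ρ L f ∈ fixS ρ L := by
  have := Fintype.ofFinite ↥L
  intro h hh
  rw [I1_eL_apply, map_sum]
  refine Fintype.sum_equiv (Equiv.mulLeft (⟨h, hh⟩ : ↥L)) _ _ ?_
  intro l
  show ρ h (ρ (l : S) f) = ρ (((⟨h, hh⟩ : ↥L) * l : ↥L) : S) f
  rw [Subgroup.coe_mul, map_mul]
  rfl

end Cfsg.Agent.Lib.Helper32.FM
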