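import Cfsg.Agent.Lib.Helper32.FM.Defs

set_option autoImplicit false

namespace Cfsg.Agent.Lib.Helper32.FM

open Cfsg.Agent.Lib.Helper25.FrF

variable {S : Type*} [Group S] [Finite S] {E : Type*} [AddCommGroup E] [Module (ZMod 2) E] [Finite E]

/-- on a vector fixed by `L` the operator `eL ρ L` is multiplication by `|L|`, which is `1` in `ZMod 2`. -/
theorem eL_of_mem (ρ : Representation (ZMod 2) S E) (L : Subgroup S) (hodd : Odd (Nat.card ↥L)) {f : E}
    (hf : f ∈ fixS ρ L) : eL ρ L f = f := by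
  have := Fintype.ofFinite ↥L
  unfold eL
  rw [finsum_eq_sum_of_fintype, LinearMap.sum_apply,
    Finset.sum_congr rfl (fun (l : ↥L) _ => (hf l.1 l.2 : ρ (l : S) f = f)), Finset.sum_const,
    Finset.card_univ, ← Nat.card_eq_fintype_card]
  obtain ⟨k, hk⟩ := hodd
  rw [hk, add_smul, one_smul, mul_smul]
  have h2 : (2 : ℕ) • (k • f) = 0 := by
    rw [← Nat.cast_smul_eq_nsmul (ZMod 2)]
    have : ((2 : ℕ) : ZMod 2) = 0 := by decide
    rw [this, zero_smul]
  rw [h2, zero_add]

end Cfsg.Agent.Lib.Helper32.FM
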