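import Cfsg.Agent.Lib.Helper32.FM.Defs

set_option autoImplicit false

namespace Cfsg.Agent.Lib.Helper32.FM

open Cfsg.Agent.Lib.Helper25.FrF

variable {S : Type*} [Group S] [Finite S] {E : Type*} [AddCommGroup E] [Module (ZMod 2) E] [Finite E]

theorem I3_apply (ρ : Representation (ZMod 2) S E) (L : Subgroup S) [Fintype ↥L] (f : E) :
    eL ρ L f = ∑ l : ↥L, ρ (l : S) f := by
  unfold eL
  rw [finsum_eq_sum_of_fintype, LinearMap.sum_apply]

theorem I3_fix (ρ : Representation (ZMod 2) S E) (L : Subgroup S) (f : E) (h : S) (hh : h ∈ L) :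
    ρ h (eL ρ L f) = eL ρ L f := by
  have := Fintype.ofFinite ↥L
  rw [I3_apply, map_sum]
  refine Fintype.sum_equiv (Equiv.mulLeft (⟨h, hh⟩ : ↥L)) _ _ ?_
  intro l
  simp [map_mul]

theorem I3_comm (ρ : Representation (ZMod 2) S E) (L : Subgroup S) (f : E) (h : S)
    (hh : ∀ l ∈ L, h * l = l * h) :
    ρ h (eL ρ L f) = eL ρ L (ρ h f) := by
  have := Fintype.ofFinite ↥L
  rw [I3_apply, I3_apply, map_sum]
  refine Finset.sum_congr rfl ?_
  intro l _
  have h1 : ρ h (ρ (l : S) f) = ρ (h * l) f := by simp [map_mul]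
  have h2 : ρ (l : S) (ρ h f) = ρ (l * h) f := by simp [map_mul]
  rw [h1, h2, hh l l.2]

theorem I3_sup {p : ℕ} (hp : p.Prime) {V L L' : Subgroup S} (hV : Nat.card ↥V = p ^ 2)
    (hL : L ∈ Pts V p) (hL' : L' ∈ Pts V p) (hne : L ≠ L') : L ⊔ L' = V := by
  have hle : L ⊔ L' ≤ V := sup_le hL.1 hL'.1
  have hd : Nat.card ↥(L ⊔ L') ∣ p ^ 2 := hV ▸ Subgroup.card_dvd_of_le hle
  obtain ⟨k, hk, hkc⟩ := (Nat.dvd_prime_pow hp).1 hd
  have hd1 : p ∣ Nat.card ↥(L ⊔ L') := hL.2 ▸ Subgroup.card_dvd_of_le (le_sup_left : L ≤ L ⊔ L')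
  interval_cases k
  · rw [hkc, pow_zero] at hd1
    exact absurd (Nat.dvd_one.1 hd1) hp.one_lt.ne'
  · exfalso
    rw [pow_one] at hkc
    have e1 : L = L ⊔ L' := Subgroup.eq_of_le_of_card_ge le_sup_left (by rw [hkc, hL.2])
    have e2 : L' = L ⊔ L' := Subgroup.eq_of_le_of_card_ge le_sup_right (by rw [hkc, hL'.2])
    exact hne (e1.trans e2.symm)
  · exact Subgroup.eq_of_le_of_card_ge hle (by rw [hkc, hV])

/-- for two different subgroups `L ≠ L'` of order `p` of `V` (`|V| = p²`, abelian): `(l, l') ↦ l l'` is a bijection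
`L × L' → V`, so `e_L e_{L'} f = ∑_{v ∈ V} ρ v f`, which is fixed by `V`, hence `0` by `c.fixV`. -/
theorem eL_eL {ρ : Representation (ZMod 2) S E} {p q : ℕ} {V T Q : Subgroup S} (c : Cfg ρ p q V T Q)
    (hV : Nat.card ↥V = p ^ 2) {L L' : Subgroup S} (hL : L ∈ Pts V p) (hL' : L' ∈ Pts V p) (hne : L ≠ L')
    (f : E) : eL ρ L (eL ρ L' f) = 0 := by
  apply c.fixV
  set w := eL ρ L (eL ρ L' f) with hw
  let H : Subgroup S :=
    { carrier := {s | ρ s w = w}
      mul_mem' := by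
        intro a b ha hb
        simp only [Set.mem_setOf_eq] at ha hb ⊢
        rw [map_mul, Module.End.mul_apply, hb, ha]
      one_mem' := by simp
      inv_mem' := by
        intro a ha
        simp only [Set.mem_setOf_eq] at ha ⊢
        conv_lhs => rw [← ha]
        rw [← Module.End.mul_apply, ← map_mul, inv_mul_cancel, map_one, Module.End.one_apply] }
  have h1 : L ≤ H := fun h hh => I3_fix ρ L _ h hh
  have h2 : L' ≤ H := by
    intro h hh
    show ρ h w = w
    rw [hw, I3_comm ρ L _ h (fun l hl => c.ab h (hL'.1 hh) l (hL.1 hl)), I3_fix ρ L' f h hh]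
  have h3 : V ≤ H := by
    rw [← I3_sup c.hp hV hL hL' hne]
    exact sup_le h1 h2
  intro v hv
  exact h3 hv

end Cfsg.Agent.Lib.Helper32.FM
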