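import Cfsg.Agent.Lib.Helper32.FM.Defs
import Cfsg.Agent.Lib.Helper32.FM.I1
import Cfsg.Agent.Lib.Helper32.FM.I2
import Cfsg.Agent.Lib.Helper32.FM.I3

set_option autoImplicit false

namespace Cfsg.Agent.Lib.Helper32.FM

open Cfsg.Agent.Lib.Helper25.FrF

variable {S : Type*} [Group S] [Finite S] {E : Type*} [AddCommGroup E] [Module (ZMod 2) E] [Finite E]

/-- a vector in the span of the fixed spaces `fixS ρ L`, `L ∈ ω ⊆ Pts`, has support inside `ω`
(`e_{L'} u = e_{L'} e_L u = 0` for `u ∈ fixS ρ L`, `L ≠ L'`, by `eL_of_mem` and `eL_eL`; `p` is odd).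
Also `supp f ⊆ Occ` by `eL_mem`. -/
theorem supp_subset {ρ : Representation (ZMod 2) S E} {p q : ℕ} {V T Q : Subgroup S} (c : Cfg ρ p q V T Q)
    (hV : Nat.card ↥V = p ^ 2) {ω : Set (Subgroup S)} (hω : ω ⊆ Pts V p) {f : E}
    (hf : f ∈ ⨆ L ∈ ω, fixS ρ L) : supp ρ V p f ⊆ ω := by
  intro L' hL'
  by_contra hn
  apply hL'.2
  have hle : (⨆ L ∈ ω, fixS ρ L) ≤ LinearMap.ker (eL ρ L') := by
    refine iSup₂_le ?_
    intro L hL u hu
    rw [LinearMap.mem_ker]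
    have hodd : Odd (Nat.card ↥L) := by
      rw [(hω hL).2]
      exact c.hp.odd_of_ne_two c.hp2
    rw [← eL_of_mem ρ L hodd hu]
    refine eL_eL c hV hL'.1 (hω hL) ?_ u
    rintro rfl
    exact hn hL
  exact LinearMap.mem_ker.1 (hle hf)

theorem supp_subset_Occ (ρ : Representation (ZMod 2) S E) (p : ℕ) (V : Subgroup S) (f : E) :
    supp ρ V p f ⊆ Occ ρ V p := by
  intro L hL
  refine ⟨hL.1, ?_⟩
  intro hbot
  apply hL.2
  have h := eL_mem ρ L f
  rw [hbot] at h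
  exact (Submodule.mem_bot _).1 h

end Cfsg.Agent.Lib.Helper32.FM
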