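import Cfsg.Agent.Lib.Helper32.FM.Defs
import Cfsg.Agent.Lib.Helper32.FM.FP
import Cfsg.Agent.Lib.Helper32.FM.SU1
import Cfsg.Agent.Lib.Helper32.FM.SU2
import Cfsg.Agent.Lib.Helper32.FM.I4
import Cfsg.Agent.Lib.Helper32.FM.I5

set_option autoImplicit false

namespace Cfsg.Agent.Lib.Helper32.FM

open Cfsg.Agent.Lib.Helper25.FrF

variable {S : Type*} [Group S] [Finite S] {E : Type*} [AddCommGroup E] [Module (ZMod 2) E] [Finite E]

omit [Finite S] in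
theorem C1_cj_mul (a b : S) (L : Subgroup S) : cj a (cj b L) = cj (a * b) L := by
  unfold cj
  rw [Subgroup.map_map]
  congr 1
  ext x
  simp [mul_assoc]

omit [Finite S] in
theorem C1_cj_one (L : Subgroup S) : cj 1 L = L := by
  unfold cj
  ext x
  simp

/-- for `L₀ ∈ Occ` there is `0 ≠ f` fixed by `T` with `supp f = orb T L₀`: apply `exists_fixed_ne_zero` to
`M = ⨆_{L ∈ orb T L₀} fixS ρ L` (`T`-invariant by `fixS_cj`); `supp f ⊆ orb T L₀` by `supp_subset`; `supp f` is nonempty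
(`exists_supp`) and `T`-invariant (`supp_smul` and `ρ t f = f`), hence it is the whole orbit. -/
theorem exists_fixed {ρ : Representation (ZMod 2) S E} {p q : ℕ} {V T Q : Subgroup S} (c : Cfg ρ p q V T Q)
    (hV : Nat.card ↥V = p ^ 2) (hexp : ∀ v ∈ V, v ^ p = 1) {L₀ : Subgroup S} (h0 : L₀ ∈ Occ ρ V p) :
    ∃ f ∈ fixS ρ T, f ≠ 0 ∧ supp ρ V p f = orb T L₀ := by
  classical
  have hmem0 : L₀ ∈ orb T L₀ := ⟨1, T.one_mem, (C1_cj_one L₀).symm⟩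
  have hM : (⨆ L ∈ orb T L₀, fixS ρ L) ≠ ⊥ := by
    intro h
    apply h0.2
    rw [eq_bot_iff, ← h]
    exact le_iSup₂_of_le L₀ hmem0 le_rfl
  have hinv : ∀ t ∈ T, ∀ m ∈ (⨆ L ∈ orb T L₀, fixS ρ L), ρ t m ∈ (⨆ L ∈ orb T L₀, fixS ρ L) := by
    intro t ht m hm
    have hle : (⨆ L ∈ orb T L₀, fixS ρ L) ≤
        (⨆ L ∈ orb T L₀, fixS ρ L).comap (ρ t) := by
      refine iSup₂_le ?_
      rintro L ⟨t', ht', rfl⟩ x hx
      rw [Submodule.mem_comap]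
      have h1 : ρ t x ∈ fixS ρ (cj t (cj t' L₀)) := (fixS_cj ρ t _ x).2 hx
      have h2 : cj t (cj t' L₀) ∈ orb T L₀ := ⟨t * t', T.mul_mem ht ht', C1_cj_mul t t' L₀⟩
      exact (le_iSup₂_of_le (f := fun L (_ : L ∈ orb T L₀) => fixS ρ L) _ h2 le_rfl) h1
    exact hle hm
  obtain ⟨f, hfM, hfT, hf0⟩ := exists_fixed_ne_zero ρ T c.hT _ hM hinv
  have hω : orb T L₀ ⊆ Pts V p := by
    rintro L ⟨t, _, rfl⟩
    exact (Occ_cj c t h0).1
  have hsub : supp ρ V p f ⊆ orb T L₀ := supp_subset c hV hω hfM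
  obtain ⟨L₁, hL₁⟩ := exists_supp c hV hexp hf0
  refine ⟨f, hfT, hf0, Set.Subset.antisymm hsub ?_⟩
  obtain ⟨t₁, ht₁, rfl⟩ := hsub hL₁
  rintro L ⟨t, ht, rfl⟩
  have hfix : ρ (t * t₁⁻¹) f = f := hfT _ (T.mul_mem ht (T.inv_mem ht₁))
  have h3 := supp_smul c (t * t₁⁻¹) f
  rw [hfix] at h3
  rw [h3]
  refine ⟨_, hL₁, ?_⟩
  rw [C1_cj_mul]
  simp
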