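import Cfsg.Agent.Lib.Helper32.FM.Defs

set_option autoImplicit false

namespace Cfsg.Agent.Lib.Helper32.FM

open Cfsg.Agent.Lib.Helper25.FrF

variable {S : Type*} [Group S] [Finite S] {E : Type*} [AddCommGroup E] [Module (ZMod 2) E] [Finite E]

/-- the order of a subspace of a finite `ZMod 2`-space is a power of 2; so `4 ≤ |F| < 8` forces `|F| = 4`. -/
theorem card_eq_four (F : Submodule (ZMod 2) E) (h4 : 4 ≤ Nat.card ↥F) (h8 : ¬ 8 ≤ Nat.card ↥F) :
    Nat.card ↥F = 4 := by
  have h : Nat.card ↥F = 2 ^ Module.finrank (ZMod 2) ↥F := by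
    have := Module.natCard_eq_pow_finrank (K := ZMod 2) (V := ↥F)
    simpa using this
  rw [h] at h4 h8 ⊢
  set d := Module.finrank (ZMod 2) ↥F with hd
  have h3 : d < 3 := by
    by_contra hc
    apply h8
    calc 8 = 2 ^ 3 := by norm_num
      _ ≤ 2 ^ d := Nat.pow_le_pow_right (by norm_num) (by omega)
  have h2 : 2 ≤ d := by
    by_contra hc
    have : 2 ^ d ≤ 2 ^ 1 := Nat.pow_le_pow_right (by norm_num) (by omega)
    omega
  have : d = 2 := by omega
  rw [this]; norm_num

end Cfsg.Agent.Lib.Helper32.FM
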