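import Cfsg.Agent.Lib.Helper32.FM.Defs
import Cfsg.Agent.Lib.Helper32.FM.SU2
import Cfsg.Agent.Lib.Helper32.FM.SU1
import Cfsg.Agent.Lib.Helper32.FM.I2
import Cfsg.Agent.Lib.Helper32.FM.I5

set_option autoImplicit false

namespace Cfsg.Agent.Lib.Helper32.FM

open Cfsg.Agent.Lib.Helper25.FrF

variable {S : Type*} [Group S] [Finite S] {E : Type*} [AddCommGroup E] [Module (ZMod 2) E] [Finite E]

omit [Finite S] in
theorem TR_cj_mul (s t : S) (L : Subgroup S) : cj s (cj t L) = cj (s * t) L := by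
  unfold cj
  rw [Subgroup.map_map]
  congr 1
  ext x
  simp [mul_assoc]

omit [Finite S] in
theorem TR_cj_one (L : Subgroup S) : cj 1 L = L := by
  unfold cj
  ext x
  simp

/-- `S` is transitive on `Occ`: `U = ⨆_s fixS ρ (cj s L₀)` is a nonzero `S`-invariant subspace, so `U = ⊤` by `c.irr`.
If `L ∈ Occ` take `0 ≠ u ∈ fixS ρ L`; then `L ∈ supp u` (`e_L u = u`) and `supp u ⊆ {cj s L₀}` by `supp_subset`. -/
theorem trans {ρ : Representation (ZMod 2) S E} {p q : ℕ} {V T Q : Subgroup S} (c : Cfg ρ p q V T Q)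
    (hV : Nat.card ↥V = p ^ 2) {L₀ L : Subgroup S} (h0 : L₀ ∈ Occ ρ V p) (hL : L ∈ Occ ρ V p) :
    ∃ s : S, L = cj s L₀ := by
  set ω : Set (Subgroup S) := {L' | ∃ s : S, L' = cj s L₀} with hω
  have hωP : ω ⊆ Pts V p := by
    rintro _ ⟨s, rfl⟩
    exact (Occ_cj c s h0).1
  set U : Submodule (ZMod 2) E := ⨆ L' ∈ ω, fixS ρ L' with hU
  have hinv : ∀ s : S, ∀ m ∈ U, ρ s m ∈ U := by
    intro s
    have : U ≤ U.comap (ρ s) := by
      apply iSup₂_le
      rintro _ ⟨t, rfl⟩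
      intro u hu
      show ρ s u ∈ U
      have h1 : ρ s u ∈ fixS ρ (cj s (cj t L₀)) := (fixS_cj ρ s _ u).mpr hu
      have h2 : cj s (cj t L₀) ∈ ω := ⟨s * t, TR_cj_mul s t L₀⟩
      exact (le_iSup₂ (f := fun L' (_ : L' ∈ ω) => fixS ρ L') _ h2) h1
    exact fun m hm => this hm
  have hne : U ≠ ⊥ := by
    intro hbot
    apply h0.2
    rw [eq_bot_iff, ← hbot]
    exact le_iSup₂ (f := fun L' (_ : L' ∈ ω) => fixS ρ L') L₀ ⟨1, (TR_cj_one L₀).symm⟩
  have htop : U = ⊤ := (c.irr U hinv).resolve_left hne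
  obtain ⟨u, hu, hu0⟩ := (Submodule.ne_bot_iff _).mp hL.2
  have huU : u ∈ U := by rw [htop]; trivial
  have hsub := supp_subset c hV hωP huU
  have hodd : Odd (Nat.card ↥L) := by
    rw [hL.1.2]; exact c.hp.odd_of_ne_two c.hp2
  have hmem : L ∈ supp ρ V p u := by
    refine ⟨hL.1, ?_⟩
    rw [eL_of_mem ρ L hodd hu]; exact hu0
  exact hsub hmem

end Cfsg.Agent.Lib.Helper32.FM
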