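import Cfsg.Agent.Lib.Helper32.FM.Defs
import Cfsg.Agent.Lib.Helper32.FM.C1
import Cfsg.Agent.Lib.Helper32.FM.SU1
import Cfsg.Agent.Lib.Helper32.FM.SU2
import Cfsg.Agent.Lib.Helper32.FM.TR

set_option autoImplicit false

namespace Cfsg.Agent.Lib.Helper32.FM

open Cfsg.Agent.Lib.Helper25.FrF

variable {S : Type*} [Group S] [Finite S] {E : Type*} [AddCommGroup E] [Module (ZMod 2) E] [Finite E]

/-- exactly two `T`-orbits on `Occ` ⇒ `F = fixS ρ T` is not `Q`-invariant.  Suppose it is.  Let `f₁, f₂ ∈ F` with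
`supp f_i = ω_i = orb T L_i` (`exists_fixed`).  For `x ∈ Q`, `ρ x f_i ∈ F`, so `cj x '' ω_i = supp (ρ x f_i)` is a `T`-invariant
(`supp_smul`) nonempty subset of `Occ = ω₁ ⊔ ω₂`, so it contains `ω₁` or `ω₂`; as `cj x` is injective and `cj x '' Occ = Occ`,
`cj x` permutes `{ω₁, ω₂}`.  `{x ∈ Q | cj x '' ω₁ = ω₁}` is a subgroup of `Q` of index `≤ 2`, and `|Q| = q` is an odd prime, so it
is `Q`.  Then `ω₁` is invariant under `T`, `Q` and `V` (`cj_of_mem_V`), hence under `V ⊔ T ⊔ Q = ⊤`; by `trans`, `L₁ ∈ ω₁`: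
contradiction. -/
theorem not_inv {ρ : Representation (ZMod 2) S E} {p q : ℕ} {V T Q : Subgroup S} (c : Cfg ρ p q V T Q)
    (hV : Nat.card ↥V = p ^ 2) (hexp : ∀ v ∈ V, v ^ p = 1) {L₀ L₁ : Subgroup S} (h0 : L₀ ∈ Occ ρ V p)
    (h1 : L₁ ∈ Occ ρ V p) (hne : L₁ ∉ orb T L₀) (hcov : ∀ L ∈ Occ ρ V p, L ∈ orb T L₀ ∨ L ∈ orb T L₁) :
    ∃ x ∈ Q, ∃ v ∈ fixS ρ T, ρ x v ∉ fixS ρ T := by
  by_contra hcon
  push_neg at hcon
  obtain ⟨f, hfT, hf0, hfs⟩ := exists_fixed c hV hexp h0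
  have horbOcc : ∀ {L M : Subgroup S}, L ∈ Occ ρ V p → M ∈ orb T L → M ∈ Occ ρ V p := by
    rintro L M hL ⟨t, _, rfl⟩
    exact Occ_cj c t hL
  have hinj : ∀ (s : S) {L L' : Subgroup S}, cj s L = cj s L' → L = L' := by
    intro s L L' h
    have := congrArg (cj s⁻¹) h
    rwa [TR_cj_mul, TR_cj_mul, inv_mul_cancel, TR_cj_one, TR_cj_one] at this
  have hdisj : ∀ L, L ∈ orb T L₀ → L ∈ orb T L₁ → False := by
    rintro L ⟨t, ht, rfl⟩ ⟨t', ht', h⟩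
    apply hne
    refine ⟨t'⁻¹ * t, T.mul_mem (T.inv_mem ht') ht, ?_⟩
    rw [← TR_cj_mul, h, TR_cj_mul, inv_mul_cancel, TR_cj_one]
  have hL0 : L₀ ∈ orb T L₀ := ⟨1, T.one_mem, (TR_cj_one L₀).symm⟩
  have hQ : ∀ y ∈ Q, (∀ L ∈ orb T L₀, cj y L ∈ orb T L₀) ∨
      ((∀ L ∈ orb T L₀, cj y L ∈ orb T L₁) ∧ ∀ L ∈ orb T L₁, cj y L ∈ orb T L₀) := by
    intro y hy
    have hA : supp ρ V p (ρ y f) = cj y '' orb T L₀ := by rw [supp_smul c y f, hfs]
    have hyf : ρ y f ∈ fixS ρ T := hcon y hy f hfT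
    have hTinv : ∀ M ∈ cj y '' orb T L₀, ∀ t ∈ T, cj t M ∈ cj y '' orb T L₀ := by
      intro M hM t ht
      rw [← hA] at hM ⊢
      have h2 : supp ρ V p (ρ t (ρ y f)) = cj t '' supp ρ V p (ρ y f) := supp_smul c t _
      rw [hyf t ht] at h2
      rw [h2]
      exact ⟨M, hM, rfl⟩
    have hS : ∀ M ∈ cj y '' orb T L₀, ∀ L, M ∈ orb T L → orb T L ⊆ cj y '' orb T L₀ := by
      rintro M hM L ⟨t, ht, rfl⟩ _ ⟨t', ht', rfl⟩
      have := hTinv _ hM (t' * t⁻¹) (T.mul_mem ht' (T.inv_mem ht))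
      rwa [TR_cj_mul, inv_mul_cancel_right] at this
    have hno : ¬ (orb T L₀ ⊆ cj y '' orb T L₀ ∧ orb T L₁ ⊆ cj y '' orb T L₀) := by
      rintro ⟨ha, hb⟩
      have h3 : cj y L₁ ∈ Occ ρ V p := Occ_cj c y h1
      have h4 : cj y L₁ ∈ cj y '' orb T L₀ := by
        rcases hcov _ h3 with h | h
        · exact ha h
        · exact hb h
      obtain ⟨L', hL', hEq⟩ := h4
      exact hne (hinj y hEq ▸ hL')
    have hmemA : ∀ L ∈ orb T L₀, cj y L ∈ cj y '' orb T L₀ := fun L hL => ⟨L, hL, rfl⟩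
    have hOccA : ∀ L ∈ orb T L₀, cj y L ∈ Occ ρ V p := fun L hL => Occ_cj c y (horbOcc h0 hL)
    rcases hcov _ (hOccA L₀ hL0) with ha | hb
    · left
      intro L hL
      rcases hcov _ (hOccA L hL) with h | h
      · exact h
      · exact absurd ⟨hS _ (hmemA L₀ hL0) _ ha, hS _ (hmemA L hL) _ h⟩ hno
    · right
      refine ⟨?_, ?_⟩
      · intro L hL
        rcases hcov _ (hOccA L hL) with h | h
        · exact absurd ⟨hS _ (hmemA L hL) _ h, hS _ (hmemA L₀ hL0) _ hb⟩ hno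
        · exact h
      · intro L hL
        rcases hcov _ (Occ_cj c y (horbOcc h1 hL)) with h | h
        · exact h
        · exfalso
          obtain ⟨L', hL', hEq⟩ := hS _ (hmemA L₀ hL0) _ hb h
          have h5 := hinj y hEq
          exact hdisj L (h5 ▸ hL') hL
  have hQ' : ∀ x ∈ Q, ∀ L ∈ orb T L₀, cj x L ∈ orb T L₀ := by
    intro x hx L hL
    have hxq : x ^ q = 1 := by
      have h2 := pow_card_eq_one' (G := ↥Q) (x := ⟨x, hx⟩)
      rw [c.cQ] at h2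
      simpa using congrArg Subtype.val h2
    obtain ⟨m, hm⟩ := c.hq.odd_of_ne_two c.hq2
    have hy : x ^ (m + 1) ∈ Q := Q.pow_mem hx _
    have hsq : x ^ (m + 1) * x ^ (m + 1) = x := by
      rw [← pow_add, show m + 1 + (m + 1) = q + 1 by omega, pow_succ, hxq, one_mul]
    rw [← hsq, ← TR_cj_mul]
    rcases hQ _ hy with h | ⟨h, h'⟩
    · exact h _ (h _ hL)
    · exact h' _ (h _ hL)
  let Y : Subgroup S :=
    { carrier := {s | ∀ L, L ∈ orb T L₀ ↔ cj s L ∈ orb T L₀}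
      one_mem' := fun L => by rw [TR_cj_one]
      mul_mem' := by
        intro a b ha hb L
        rw [← TR_cj_mul]
        exact (hb L).trans (ha _)
      inv_mem' := by
        intro a ha L
        have := ha (cj a⁻¹ L)
        rw [TR_cj_mul, mul_inv_cancel, TR_cj_one] at this
        exact this.symm }
  have hle : ∀ H : Subgroup S, (∀ s ∈ H, ∀ L ∈ orb T L₀, cj s L ∈ orb T L₀) → H ≤ Y := by
    intro H hH s hs L
    refine ⟨hH s hs L, fun h => ?_⟩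
    have := hH s⁻¹ (H.inv_mem hs) _ h
    rwa [TR_cj_mul, inv_mul_cancel, TR_cj_one] at this
  have hVY : V ≤ Y := hle V (fun v hv L hL => by
    rw [cj_of_mem_V c hv (horbOcc h0 hL).1.1]; exact hL)
  have hTY : T ≤ Y := hle T (by
    rintro t ht _ ⟨t', ht', rfl⟩
    exact ⟨t * t', T.mul_mem ht ht', TR_cj_mul t t' L₀⟩)
  have hQY : Q ≤ Y := hle Q hQ'
  have htop : Y = ⊤ := by
    rw [eq_top_iff, ← c.top]
    exact sup_le (sup_le hVY hTY) hQY
  obtain ⟨s, hs⟩ := trans c hV h0 h1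
  have hsY : s ∈ Y := by rw [htop]; trivial
  exact hne (hs ▸ (hsY L₀).mp hL0)

end Cfsg.Agent.Lib.Helper32.FM
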