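import Cfsg.Agent.Lib.Helper32.FM.Defs
import Cfsg.Agent.Lib.Helper32.FM.SU1

set_option autoImplicit false

namespace Cfsg.Agent.Lib.Helper32.FM

open Cfsg.Agent.Lib.Helper25.FrF

variable {S : Type*} [Group S] [Finite S] {E : Type*} [AddCommGroup E] [Module (ZMod 2) E] [Finite E]

theorem C5a_cj_eq_iff (k : S) (L₀ : Subgroup S) :
    cj k L₀ = L₀ ↔ k ∈ Subgroup.normalizer (L₀ : Set S) := by
  rw [Subgroup.mem_normalizer_iff]
  constructor
  · intro h x
    constructor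
    · intro hx
      have : k * x * k⁻¹ ∈ cj k L₀ := ⟨x, hx, rfl⟩
      rwa [h] at this
    · intro hx
      have hx' : k * x * k⁻¹ ∈ L₀ := hx
      rw [← h] at hx'
      obtain ⟨y, hy, hyx⟩ := hx'
      have hyx' : k * y * k⁻¹ = k * x * k⁻¹ := hyx
      have : y = x := by
        have := mul_right_cancel hyx'
        exact mul_left_cancel this
      rw [← this]
      exact hy
  · intro h
    ext x
    constructor
    · rintro ⟨y, hy, rfl⟩
      exact (h y).mp hy
    · intro hx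
      refine ⟨k⁻¹ * x * k, ?_, ?_⟩
      · apply (h _).mpr
        have : k * (k⁻¹ * x * k) * k⁻¹ = x := by group
        show k * (k⁻¹ * x * k) * k⁻¹ ∈ L₀
        rw [this]
        exact hx
      · show k * (k⁻¹ * x * k) * k⁻¹ = x
        group

open Pointwise in
theorem C5a_os (H : Subgroup S) (L₀ : Subgroup S) :
    Nat.card ↥H = (orb H L₀).ncard * Nat.card ↥(H ⊓ Subgroup.normalizer (L₀ : Set S)) := by
  letI : MulAction S (Subgroup S) := MulAction.compHom (Subgroup S) (MulAut.conj : S →* MulAut S)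
  have hsm : ∀ (s : S) (L : Subgroup S), s • L = cj s L := fun s L => rfl
  have h1 := MulAction.index_stabilizer ↥H L₀
  have h2 := (MulAction.stabilizer ↥H L₀).index_mul_card
  have h3 : MulAction.orbit ↥H L₀ = orb H L₀ := by
    ext L
    constructor
    · rintro ⟨h, rfl⟩
      exact ⟨h.1, h.2, rfl⟩
    · rintro ⟨t, ht, rfl⟩
      exact ⟨⟨t, ht⟩, rfl⟩
  have h4 : Nat.card (MulAction.stabilizer ↥H L₀)
      = Nat.card ↥(H ⊓ Subgroup.normalizer (L₀ : Set S)) := by
    refine Nat.card_congr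
      { toFun := fun x => ⟨x.1.1, ⟨x.1.2, (C5a_cj_eq_iff x.1.1 L₀).mp x.2⟩⟩
        invFun := fun y => ⟨⟨y.1, y.2.1⟩, (C5a_cj_eq_iff y.1 L₀).mpr y.2.2⟩
        left_inv := fun x => rfl
        right_inv := fun y => rfl }
  rw [← h2, h1, h3, h4]

/-- if `T` is transitive on `Occ` then `|N_K(L₀)| = q |N_T(L₀)|` for `K = T ⊔ Q`: the `K`-orbit of `L₀` lies in `Occ` (`Occ_cj`), which
is the `T`-orbit; orbit-stabiliser for `K` and for `T` acting by `cj` gives `|K| / |N_K(L₀)| = |T| / |N_T(L₀)|`, and `|K| = q |T|`. -/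
theorem card_stab {ρ : Representation (ZMod 2) S E} {p q : ℕ} {V T Q : Subgroup S} (c : Cfg ρ p q V T Q)
    {L₀ : Subgroup S} (h0 : L₀ ∈ Occ ρ V p) (hcov : ∀ L ∈ Occ ρ V p, L ∈ orb T L₀) :
    Nat.card ↥((T ⊔ Q) ⊓ Subgroup.normalizer (L₀ : Set S)) =
      q * Nat.card ↥(T ⊓ Subgroup.normalizer (L₀ : Set S)) := by
  have hK := C5a_os (T ⊔ Q) L₀
  have hT := C5a_os T L₀
  have horb : orb (T ⊔ Q) L₀ = orb T L₀ := by
    ext L
    constructor
    · rintro ⟨k, hk, rfl⟩
      exact hcov _ (Occ_cj c k h0)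
    · rintro ⟨t, ht, rfl⟩
      exact ⟨t, (le_sup_left : T ≤ T ⊔ Q) ht, rfl⟩
  rw [horb, c.cK, hT] at hK
  have hn : 0 < (orb T L₀).ncard := by
    by_contra h0'
    have h00 : (orb T L₀).ncard = 0 := by omega
    rw [h00, zero_mul] at hT
    exact Nat.card_pos.ne' hT
  apply Nat.eq_of_mul_eq_mul_left hn
  rw [← hK]
  ring

end Cfsg.Agent.Lib.Helper32.FM
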