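import Cfsg.Agent.Lib.Helper32.FM.Defs
import Cfsg.Agent.Lib.Helper32.FM.I2
import Cfsg.Agent.Lib.Helper32.FM.I3
import Cfsg.Agent.Lib.Helper32.FM.I5

set_option autoImplicit false

namespace Cfsg.Agent.Lib.Helper32.FM

open Cfsg.Agent.Lib.Helper25.FrF

variable {S : Type*} [Group S] [Finite S] {E : Type*} [AddCommGroup E] [Module (ZMod 2) E] [Finite E]

theorem C5b_cj_mem {p : ℕ} {V : Subgroup S} (nV : V.Normal) {L : Subgroup S} (h0 : L ∈ Pts V p) (t : S) :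
    cj t L ∈ Pts V p := by
  refine ⟨?_, ?_⟩
  · rintro _ ⟨h, hh, rfl⟩
    exact nV.conj_mem h (h0.1 hh) t
  · rw [← h0.2]
    exact Nat.card_congr
      (L.equivMapOfInjective (MulAut.conj t).toMonoidHom (MulAut.conj t).injective).toEquiv.symm

theorem C5b_mem_normalizer {L : Subgroup S} {t : S} (h : cj t L = L) :
    t ∈ Subgroup.normalizer (L : Set S) := by
  rw [Subgroup.mem_normalizer_iff]
  intro x
  constructor
  · intro hx
    have : t * x * t⁻¹ ∈ cj t L := ⟨x, hx, rfl⟩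
    rw [h] at this
    exact this
  · intro hx
    have hx' : t * x * t⁻¹ ∈ cj t L := by rw [h]; exact hx
    obtain ⟨y, hy, hyx⟩ := hx'
    have : y = x := (MulAut.conj t).injective hyx
    rw [← this]
    exact hy

open Classical in
/-- the sum of the `T`-orbit of `u` -/
noncomputable def C5bΦ (ρ : Representation (ZMod 2) S E) (T : Subgroup S) (u : E) : E :=
  have := Fintype.ofFinite ↥T
  ∑ w ∈ Finset.univ.image (fun t : ↥T => ρ (t : S) u), w

theorem C5bΦ_mem (ρ : Representation (ZMod 2) S E) (T : Subgroup S) (u : E) : C5bΦ ρ T u ∈ fixS ρ T := by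
  classical
  have := Fintype.ofFinite ↥T
  intro h hh
  unfold C5bΦ
  rw [map_sum]
  have hinj : Function.Injective (ρ h) := by
    intro a b hab
    have := congrArg (ρ h⁻¹) hab
    simpa [← Module.End.mul_apply, ← map_mul] using this
  rw [← Finset.sum_image (f := fun w => w) (g := fun w => ρ h w) (fun a _ b _ hab => hinj hab)]
  apply Finset.sum_congr _ (fun _ _ => rfl)
  ext w
  simp only [Finset.mem_image, Finset.mem_univ, true_and, exists_exists_eq_and]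
  constructor
  · rintro ⟨t, rfl⟩
    refine ⟨⟨h, hh⟩ * t, ?_⟩
    rw [Subgroup.coe_mul, map_mul]
    rfl
  · rintro ⟨t, rfl⟩
    refine ⟨⟨h, hh⟩⁻¹ * t, ?_⟩
    rw [Subgroup.coe_mul, Subgroup.coe_inv, ← Module.End.mul_apply, ← map_mul]
    simp

theorem C5b_eL {ρ : Representation (ZMod 2) S E} {p q : ℕ} {V T Q : Subgroup S} (c : Cfg ρ p q V T Q)
    (hV : Nat.card ↥V = p ^ 2) {L₀ : Subgroup S} (h0 : L₀ ∈ Pts V p) {u : E}
    (hu : u ∈ fixS ρ L₀ ⊓ fixS ρ (T ⊓ Subgroup.normalizer (L₀ : Set S))) :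
    eL ρ L₀ (C5bΦ ρ T u) = u := by
  classical
  have := Fintype.ofFinite ↥T
  have hodd : ∀ L ∈ Pts V p, Odd (Nat.card ↥L) := fun L hL => by
    rw [hL.2]; exact c.hp.odd_of_ne_two c.hp2
  unfold C5bΦ
  rw [map_sum, Finset.sum_eq_single u]
  · exact eL_of_mem ρ L₀ (hodd _ h0) hu.1
  · intro w hw hne
    simp only [Finset.mem_image, Finset.mem_univ, true_and] at hw
    obtain ⟨t, rfl⟩ := hw
    have hcj : cj (t : S) L₀ ≠ L₀ := by
      intro h
      apply hne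
      exact hu.2 t ⟨t.2, C5b_mem_normalizer h⟩
    have hm := C5b_cj_mem c.nV h0 (t : S)
    have h1 : ρ (t : S) u ∈ fixS ρ (cj (t : S) L₀) := (fixS_cj ρ t L₀ u).2 hu.1
    rw [← eL_of_mem ρ _ (hodd _ hm) h1]
    exact eL_eL c hV h0 hm hcj.symm _
  · intro h
    exfalso
    apply h
    simp only [Finset.mem_image, Finset.mem_univ, true_and]
    exact ⟨1, by simp⟩

/-- transfer: `u ↦ ∑_{c ∈ T / N_T(L₀)} ρ (c.out) u` maps `fixS ρ L₀ ⊓ fixS ρ N_T(L₀)` injectively into `fixS ρ T`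
(well defined on cosets, `T` permutes the cosets; injective because `e_{L₀}` of the sum is `u`: for `t ∉ N(L₀)`,
`ρ t u ∈ fixS ρ (cj t L₀)`, `cj t L₀ ≠ L₀`, so `e_{L₀} ρ t u = 0` by `eL_of_mem`, `eL_eL`). -/
theorem transfer {ρ : Representation (ZMod 2) S E} {p q : ℕ} {V T Q : Subgroup S} (c : Cfg ρ p q V T Q)
    (hV : Nat.card ↥V = p ^ 2) {L₀ : Subgroup S} (h0 : L₀ ∈ Pts V p) :
    Nat.card ↥(fixS ρ L₀ ⊓ fixS ρ (T ⊓ Subgroup.normalizer (L₀ : Set S))) ≤ Nat.card ↥(fixS ρ T) := by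
  apply Nat.card_le_card_of_injective
    (fun u : ↥(fixS ρ L₀ ⊓ fixS ρ (T ⊓ Subgroup.normalizer (L₀ : Set S))) =>
      (⟨C5bΦ ρ T u.1, C5bΦ_mem ρ T u.1⟩ : ↥(fixS ρ T)))
  intro u u' h
  have h' : C5bΦ ρ T u.1 = C5bΦ ρ T u'.1 := congrArg Subtype.val h
  apply Subtype.ext
  rw [← C5b_eL c hV h0 u.2, ← C5b_eL c hV h0 u'.2, h']

end Cfsg.Agent.Lib.Helper32.FM
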