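import Cfsg.Agent.Lib.Helper32.FM.Defs

set_option autoImplicit false

namespace Cfsg.Agent.Lib.Helper32.FM

open Cfsg.Agent.Lib.Helper25.FrF

variable {S : Type*} [Group S] [Finite S] {E : Type*} [AddCommGroup E] [Module (ZMod 2) E] [Finite E]

/-- `R = {k ∈ K | k centralises V / L}` is a normal 2-subgroup of `K`: it is a subgroup normalised by `K` (`K` normalises `V` and `L`); a prime `r` dividing `|R|`
divides `|K| = q |T|`, so `r = 2` or `r = q`; `r = q` is impossible by Cauchy and `hx`. -/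
theorem exists_R (q : ℕ) (hq : q.Prime) (V L K T : Subgroup S)
    (hKV : ∀ k ∈ K, ∀ v ∈ V, k * v * k⁻¹ ∈ V) (hKL : ∀ k ∈ K, ∀ l ∈ L, k * l * k⁻¹ ∈ L)
    (hT : IsPGroup 2 ↥T) (hcard : Nat.card ↥K = q * Nat.card ↥T)
    (hx : ∀ x ∈ K, orderOf x = q → ∃ v ∈ V, x * v * x⁻¹ * v⁻¹ ∉ L) :
    ∃ R : Subgroup S, (∀ k, k ∈ R ↔ k ∈ K ∧ ∀ v ∈ V, k * v * k⁻¹ * v⁻¹ ∈ L) ∧ IsPGroup 2 ↥R ∧
      ∀ k ∈ K, ∀ r ∈ R, k * r * k⁻¹ ∈ R := by
  haveI : Fact q.Prime := ⟨hq⟩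
  let R : Subgroup S :=
    { carrier := {k | k ∈ K ∧ ∀ v ∈ V, k * v * k⁻¹ * v⁻¹ ∈ L}
      one_mem' := ⟨K.one_mem, fun v _ => by simp⟩
      mul_mem' := by
        rintro a b ⟨ha, ha'⟩ ⟨hb, hb'⟩
        refine ⟨K.mul_mem ha hb, fun v hv => ?_⟩
        have h1 := hKL a ha _ (hb' v hv)
        have h2 := ha' v hv
        have h3 := L.mul_mem h1 h2
        have e : a * b * v * (a * b)⁻¹ * v⁻¹
            = a * (b * v * b⁻¹ * v⁻¹) * a⁻¹ * (a * v * a⁻¹ * v⁻¹) := by group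
        rw [e]; exact h3
      inv_mem' := by
        rintro a ⟨ha, ha'⟩
        refine ⟨K.inv_mem ha, fun v hv => ?_⟩
        have hv' : a⁻¹ * v * a ∈ V := by
          have := hKV a⁻¹ (K.inv_mem ha) v hv
          simpa using this
        have h1 := L.inv_mem (ha' _ hv')
        have e : a⁻¹ * v * a⁻¹⁻¹ * v⁻¹ = (a * (a⁻¹ * v * a) * a⁻¹ * (a⁻¹ * v * a)⁻¹)⁻¹ := by group
        rw [e]; exact h1 }
  have hRK : R ≤ K := fun k hk => hk.1
  refine ⟨R, fun k => Iff.rfl, ?_, ?_⟩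
  · obtain ⟨a, ha⟩ := IsPGroup.iff_card.1 hT
    have hdvd : Nat.card ↥R ∣ q * 2 ^ a := by
      rw [← ha, ← hcard]; exact Subgroup.card_dvd_of_le hRK
    have hnq : ¬ q ∣ Nat.card ↥R := by
      intro hd
      obtain ⟨x, hxo⟩ := exists_prime_orderOf_dvd_card' (G := ↥R) q hd
      have hxo' : orderOf (x : S) = q := by rw [Subgroup.orderOf_coe]; exact hxo
      obtain ⟨v, hv, hvL⟩ := hx (x : S) x.2.1 hxo'
      exact hvL (x.2.2 v hv)
    have hcop : Nat.Coprime (Nat.card ↥R) q := ((Nat.Prime.coprime_iff_not_dvd hq).2 hnq).symm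
    have hd2 : Nat.card ↥R ∣ 2 ^ a := hcop.dvd_of_dvd_mul_left hdvd
    obtain ⟨m, _, hm⟩ := (Nat.dvd_prime_pow Nat.prime_two).1 hd2
    exact IsPGroup.of_card hm
  · intro k hk r hr
    refine ⟨K.mul_mem (K.mul_mem hk hr.1) (K.inv_mem hk), fun v hv => ?_⟩
    have hv' : k⁻¹ * v * k ∈ V := by
      have := hKV k⁻¹ (K.inv_mem hk) v hv
      simpa using this
    have h1 := hKL k hk _ (hr.2 _ hv')
    have e : k * r * k⁻¹ * v * (k * r * k⁻¹)⁻¹ * v⁻¹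
        = k * (r * (k⁻¹ * v * k) * r⁻¹ * (k⁻¹ * v * k)⁻¹) * k⁻¹ := by group
    rw [e]; exact h1

end Cfsg.Agent.Lib.Helper32.FM
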