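import Cfsg.Agent.Lib.Helper32.FM.Defs
import Cfsg.Agent.Lib.Helper32.FM.FP

set_option autoImplicit false

namespace Cfsg.Agent.Lib.Helper32.FM

open Cfsg.Agent.Lib.Helper25.FrF

variable {S : Type*} [Group S] [Finite S] {E : Type*} [AddCommGroup E] [Module (ZMod 2) E] [Finite E]

/-- `M' = M ⊓ fixS ρ R` is nonzero (`exists_fixed_ne_zero`), `K`-invariant (`R` normal in `K`) and `V`-invariant: for `r ∈ R`, `v ∈ V`, `u ∈ M'`: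
`r v u = (r v r⁻¹ v⁻¹) v r u = v u` because `r v r⁻¹ v⁻¹ ∈ L` acts trivially on `M ∋ v u`. -/
theorem Mprime (ρ : Representation (ZMod 2) S E) (V L K R : Subgroup S) (M : Submodule (ZMod 2) E)
    (hR : ∀ k, k ∈ R ↔ k ∈ K ∧ ∀ v ∈ V, k * v * k⁻¹ * v⁻¹ ∈ L) (hR2 : IsPGroup 2 ↥R)
    (hRn : ∀ k ∈ K, ∀ r ∈ R, k * r * k⁻¹ ∈ R)
    (hM0 : M ≠ ⊥) (hMV : ∀ v ∈ V, ∀ m ∈ M, ρ v m ∈ M) (hMK : ∀ k ∈ K, ∀ m ∈ M, ρ k m ∈ M)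
    (hML : ∀ l ∈ L, ∀ m ∈ M, ρ l m = m) :
    M ⊓ fixS ρ R ≠ ⊥ ∧ (∀ v ∈ V, ∀ m ∈ M ⊓ fixS ρ R, ρ v m ∈ M ⊓ fixS ρ R) ∧
      (∀ k ∈ K, ∀ m ∈ M ⊓ fixS ρ R, ρ k m ∈ M ⊓ fixS ρ R) := by
  refine ⟨?_, ?_, ?_⟩
  · obtain ⟨f, hfM, hfR, hf0⟩ := exists_fixed_ne_zero ρ R hR2 M hM0
      (fun t ht m hm => hMK t ((hR t).mp ht).1 m hm)
    apply (Submodule.ne_bot_iff _).mpr
    exact ⟨f, ⟨hfM, hfR⟩, hf0⟩
  · rintro v hv m ⟨hmM, hmR⟩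
    refine ⟨hMV v hv m hmM, ?_⟩
    replace hmR : m ∈ fixS ρ R := hmR
    replace hmM : m ∈ M := hmM
    show ρ v m ∈ fixS ρ R
    rw [mem_fixS]
    intro r hr
    have h1 : r * v * r⁻¹ * v⁻¹ ∈ L := ((hR r).mp hr).2 v hv
    have h2 : ρ r (ρ v m) = ρ (r * v * r⁻¹ * v⁻¹) (ρ v (ρ r m)) := by
      rw [← Module.End.mul_apply, ← Module.End.mul_apply, ← Module.End.mul_apply, ← map_mul, ← map_mul,
        ← map_mul]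
      congr 2
      group
    rw [h2, (mem_fixS.mp hmR) r hr]
    exact hML _ h1 _ (hMV v hv m hmM)
  · rintro k hk m ⟨hmM, hmR⟩
    refine ⟨hMK k hk m hmM, ?_⟩
    replace hmR : m ∈ fixS ρ R := hmR
    show ρ k m ∈ fixS ρ R
    rw [mem_fixS]
    intro r hr
    have h1 : k⁻¹ * r * k⁻¹⁻¹ ∈ R := hRn k⁻¹ (K.inv_mem hk) r hr
    have h2 : ρ r (ρ k m) = ρ k (ρ (k⁻¹ * r * k⁻¹⁻¹) m) := by
      rw [← Module.End.mul_apply, ← Module.End.mul_apply, ← map_mul, ← map_mul]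
      congr 2
      group
    rw [h2, (mem_fixS.mp hmR) _ h1]

end Cfsg.Agent.Lib.Helper32.FM
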