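import Cfsg.Agent.Lib.Helper32.FM.Defs
import Cfsg.Agent.Lib.Helper32.FM.AB

set_option autoImplicit false

namespace Cfsg.Agent.Lib.Helper32.FM

open Cfsg.Agent.Lib.Helper25.FrF

variable {S : Type*} [Group S] [Finite S] {E : Type*} [AddCommGroup E] [Module (ZMod 2) E] [Finite E]

/-- the subgroup of the elements preserving `M` -/
def RED_St (ρ : Representation (ZMod 2) S E) (M : Submodule (ZMod 2) E) : Subgroup S where
  carrier := {s | (∀ m ∈ M, ρ s m ∈ M) ∧ ∀ m ∈ M, ρ s⁻¹ m ∈ M}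
  mul_mem' := by
    rintro a b ⟨ha, ha'⟩ ⟨hb, hb'⟩
    refine ⟨fun m hm => ?_, fun m hm => ?_⟩
    · rw [map_mul]; exact ha _ (hb _ hm)
    · rw [mul_inv_rev, map_mul]; exact hb' _ (ha' _ hm)
  one_mem' := by
    refine ⟨fun m hm => ?_, fun m hm => ?_⟩
    · rw [map_one]; exact hm
    · rw [inv_one, map_one]; exact hm
  inv_mem' := by
    rintro a ⟨ha, ha'⟩
    exact ⟨ha', by rwa [inv_inv]⟩

/-- the restricted representation -/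
def RED_tau (ρ : Representation (ZMod 2) S E) (M : Submodule (ZMod 2) E) (Y : Subgroup S)
    (hY : ∀ y ∈ Y, ∀ m ∈ M, ρ y m ∈ M) : Representation (ZMod 2) ↥Y ↥M where
  toFun y := (ρ (y : S)).restrict (hY y.1 y.2)
  map_one' := by
    ext m
    simp
  map_mul' a b := by
    ext m
    simp

theorem RED_tau_apply (ρ : Representation (ZMod 2) S E) (M : Submodule (ZMod 2) E) (Y : Subgroup S)
    (hY : ∀ y ∈ Y, ∀ m ∈ M, ρ y m ∈ M) (y : ↥Y) (m : ↥M) :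
    ((RED_tau ρ M Y hY y m : ↥M) : E) = ρ (y : S) (m : E) := rfl

theorem RED (ρ : Representation (ZMod 2) S E) (p q : ℕ) (hp : p.Prime) (hp2 : p ≠ 2) (hq : q.Prime) (hq2 : q ≠ 2)
    (V L K T : Subgroup S) (M : Submodule (ZMod 2) E)
    (hLV : L ≤ V) (hVab : ∀ a ∈ V, ∀ b ∈ V, a * b = b * a) (hidx : L.relIndex V = p)
    (hKV : ∀ k ∈ K, ∀ v ∈ V, k * v * k⁻¹ ∈ V) (hKL : ∀ k ∈ K, ∀ l ∈ L, k * l * k⁻¹ ∈ L)
    (hTK : T ≤ K) (hT : IsPGroup 2 ↥T)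
    (hx : ∃ x ∈ K, orderOf x = q ∧ ∃ v ∈ V, x * v * x⁻¹ * v⁻¹ ∉ L)
    (hM0 : M ≠ ⊥) (hMV : ∀ v ∈ V, ∀ m ∈ M, ρ v m ∈ M) (hMK : ∀ k ∈ K, ∀ m ∈ M, ρ k m ∈ M)
    (hML : ∀ l ∈ L, ∀ m ∈ M, ρ l m = m)
    (hMR : ∀ k ∈ K, (∀ v ∈ V, k * v * k⁻¹ * v⁻¹ ∈ L) → ∀ m ∈ M, ρ k m = m)
    (hfix : ∀ m ∈ M, (∀ v ∈ V, ρ v m = m) → m = 0) :
    8 ≤ Nat.card ↥(M ⊓ fixS ρ T) := by
  have hVY : V ≤ V ⊔ K := le_sup_left
  have hKY : K ≤ V ⊔ K := le_sup_right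
  have hSt : V ⊔ K ≤ RED_St ρ M :=
    sup_le (fun v hv => ⟨hMV v hv, hMV _ (inv_mem hv)⟩) (fun k hk => ⟨hMK k hk, hMK _ (inv_mem hk)⟩)
  have hY : ∀ y ∈ V ⊔ K, ∀ m ∈ M, ρ y m ∈ M := fun y hy => (hSt hy).1
  have hnorm : V ⊔ K ≤ Subgroup.normalizer (V : Set S) := by
    refine sup_le Subgroup.le_normalizer (fun k hk => ?_)
    rw [Subgroup.mem_normalizer_iff]
    intro h
    refine ⟨fun hh => hKV k hk h hh, fun hh => ?_⟩
    have := hKV k⁻¹ (inv_mem hk) _ hh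
    simpa [mul_assoc] using this
  have hVn : (V.subgroupOf (V ⊔ K)).Normal := (Subgroup.normal_subgroupOf_iff_le_normalizer hVY).2 hnorm
  have : Nontrivial ↥M := (Submodule.nontrivial_iff_ne_bot).2 hM0
  have key := AB (RED_tau ρ M (V ⊔ K) hY) p q hp hp2 hq hq2 (V.subgroupOf (V ⊔ K)) (L.subgroupOf (V ⊔ K))
    (K.subgroupOf (V ⊔ K)) (T.subgroupOf (V ⊔ K)) hVn
    (fun x hx => hLV hx)
    (fun a ha b hb => Subtype.ext (hVab a.1 ha b.1 hb))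
    (by rw [Subgroup.relIndex_subgroupOf hVY]; exact hidx)
    (fun k hk l hl => hKL k.1 hk l.1 hl)
    (fun x hx => hTK hx)
    hT.comap_subtype
    (by
      obtain ⟨x, hxK, ho, v, hv, hn⟩ := hx
      exact ⟨⟨x, hKY hxK⟩, hxK, by rw [Subgroup.orderOf_mk]; exact ho, ⟨v, hVY hv⟩, hv, hn⟩)
    (fun l hl => by
      ext m
      exact hML l.1 hl m.1 m.2)
    (fun k hk h => by
      ext m
      exact hMR k.1 hk (fun v hv => h ⟨v, hVY hv⟩ hv) m.1 m.2)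
    (fun w h => by
      apply Subtype.ext
      exact hfix w.1 w.2 (fun v hv => congrArg Subtype.val (h ⟨v, hVY hv⟩ hv)))
  refine key.trans ?_
  refine Nat.card_le_card_of_injective
    (fun w : ↥(fixS (RED_tau ρ M (V ⊔ K) hY) (T.subgroupOf (V ⊔ K))) =>
      (⟨w.1.1, w.1.2, fun t ht => congrArg Subtype.val (w.2 ⟨t, hKY (hTK ht)⟩ ht)⟩ : ↥(M ⊓ fixS ρ T))) ?_
  intro a b hab
  apply Subtype.ext
  apply Subtype.ext
  have h2 := congrArg (fun z : ↥(M ⊓ fixS ρ T) => (z : E)) hab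
  exact h2

end Cfsg.Agent.Lib.Helper32.FM
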