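import Cfsg.Agent.Lib.Helper32.FM.Defs
import Cfsg.Agent.Lib.Helper32.FM.Ka
import Cfsg.Agent.Lib.Helper32.FM.Kb
import Cfsg.Agent.Lib.Helper32.FM.RED

set_option autoImplicit false

namespace Cfsg.Agent.Lib.Helper32.FM

open Cfsg.Agent.Lib.Helper25.FrF

variable {S : Type*} [Group S] [Finite S] {E : Type*} [AddCommGroup E] [Module (ZMod 2) E] [Finite E]

/-- ASSEMBLY (imports Ka Kb RED): take `R` from `exists_R`, `M' = M ⊓ fixS ρ R` from `Mprime`, an element of order `q` of `K` by Cauchy (`q ∣ |K|`), and apply `RED` to `M'`;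
`M' ⊓ fixS ρ T ≤ M ⊓ fixS ρ T`. -/
theorem KL (ρ : Representation (ZMod 2) S E) (p q : ℕ) (hp : p.Prime) (hp2 : p ≠ 2) (hq : q.Prime) (hq2 : q ≠ 2)
    (V L K T : Subgroup S) (M : Submodule (ZMod 2) E)
    (hLV : L ≤ V) (hVab : ∀ a ∈ V, ∀ b ∈ V, a * b = b * a) (hidx : L.relIndex V = p)
    (hKV : ∀ k ∈ K, ∀ v ∈ V, k * v * k⁻¹ ∈ V) (hKL : ∀ k ∈ K, ∀ l ∈ L, k * l * k⁻¹ ∈ L)
    (hTK : T ≤ K) (hT : IsPGroup 2 ↥T) (hcard : Nat.card ↥K = q * Nat.card ↥T)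
    (hx : ∀ x ∈ K, orderOf x = q → ∃ v ∈ V, x * v * x⁻¹ * v⁻¹ ∉ L)
    (hM0 : M ≠ ⊥) (hMV : ∀ v ∈ V, ∀ m ∈ M, ρ v m ∈ M) (hMK : ∀ k ∈ K, ∀ m ∈ M, ρ k m ∈ M)
    (hML : ∀ l ∈ L, ∀ m ∈ M, ρ l m = m)
    (hfix : ∀ m ∈ M, (∀ v ∈ V, ρ v m = m) → m = 0) :
    8 ≤ Nat.card ↥(M ⊓ fixS ρ T) := by
  obtain ⟨R, hR, hR2, hRn⟩ := exists_R q hq V L K T hKV hKL hT hcard hx
  obtain ⟨hM0', hMV', hMK'⟩ := Mprime ρ V L K R M hR hR2 hRn hM0 hMV hMK hML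
  haveI : Fact q.Prime := ⟨hq⟩
  have hqK : q ∣ Nat.card ↥K := by rw [hcard]; exact dvd_mul_right _ _
  obtain ⟨x, hxo⟩ := exists_prime_orderOf_dvd_card' q hqK
  have hxo' : orderOf (x : S) = q := by rw [Subgroup.orderOf_coe]; exact hxo
  have hx' : ∃ x ∈ K, orderOf x = q ∧ ∃ v ∈ V, x * v * x⁻¹ * v⁻¹ ∉ L :=
    ⟨x, x.2, hxo', hx x x.2 hxo'⟩
  have h8 := RED ρ p q hp hp2 hq hq2 V L K T (M ⊓ fixS ρ R) hLV hVab hidx hKV hKL hTK hT hx'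
    hM0' hMV' hMK' (fun l hl m hm => hML l hl m hm.1)
    (fun k hk hkv m hm => mem_fixS.1 hm.2 k ((hR k).2 ⟨hk, hkv⟩))
    (fun m hm h => hfix m hm.1 h)
  have hle : (M ⊓ fixS ρ R) ⊓ fixS ρ T ≤ M ⊓ fixS ρ T :=
    inf_le_inf_right _ inf_le_left
  refine le_trans h8 ?_
  exact Nat.card_le_card_of_injective (Submodule.inclusion hle) (Submodule.inclusion_injective hle)

end Cfsg.Agent.Lib.Helper32.FM
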