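import Cfsg.Agent.Lib.Helper32.FM.Defs
import Cfsg.Agent.Lib.Helper32.FM.KL
import Cfsg.Agent.Lib.Helper32.FM.C5a
import Cfsg.Agent.Lib.Helper32.FM.C5b
import Cfsg.Agent.Lib.Helper32.FM.I5

set_option autoImplicit false

namespace Cfsg.Agent.Lib.Helper32.FM

open Cfsg.Agent.Lib.Helper25.FrF

variable {S : Type*} [Group S] [Finite S] {E : Type*} [AddCommGroup E] [Module (ZMod 2) E] [Finite E]

/-- ASSEMBLY (imports KL C5a C5b I5): one `T`-orbit.  Apply `KL` with `L = L₀`, `K = (T ⊔ Q) ⊓ N(L₀)`, `T = T ⊓ N(L₀)`, `M = fixS ρ L₀` (invariant under `V` since `V` is abelian, under `N(L₀)` by `fixS_cj`);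
`L₀.relIndex V = p` from the orders; `hx` from `c.ordq` (`L₀ ≠ V`); `hfix` from `c.fixV`; `hcard` = `card_stab`; then `transfer`. -/
theorem one_orbit {ρ : Representation (ZMod 2) S E} {p q : ℕ} {V T Q : Subgroup S} (c : Cfg ρ p q V T Q)
    (hV : Nat.card ↥V = p ^ 2) {L₀ : Subgroup S} (h0 : L₀ ∈ Occ ρ V p) (hcov : ∀ L ∈ Occ ρ V p, L ∈ orb T L₀) :
    8 ≤ Nat.card ↥(fixS ρ T) := by
  classical
  have hLV : L₀ ≤ V := h0.1.1
  have hcL : Nat.card ↥L₀ = p := h0.1.2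
  have hp0 : 0 < p := c.hp.pos
  have hidx : L₀.relIndex V = p := by
    have h1 := Subgroup.relIndex_mul_relIndex ⊥ L₀ V bot_le hLV
    rw [Subgroup.relIndex_bot_left, Subgroup.relIndex_bot_left, hcL, hV, pow_two] at h1
    exact Nat.eq_of_mul_eq_mul_left hp0 h1
  have hne : L₀ ≠ V := by
    intro h
    rw [h, hV] at hcL
    have h2 : 1 < p := c.hp.one_lt
    nlinarith
  have hnorm : ∀ k ∈ (T ⊔ Q) ⊓ Subgroup.normalizer (L₀ : Set S), ∀ l ∈ L₀, k * l * k⁻¹ ∈ L₀ := by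
    intro k hk l hl
    exact (Subgroup.mem_normalizer_iff.1 hk.2 l).1 hl
  have hnorm' : ∀ k ∈ (T ⊔ Q) ⊓ Subgroup.normalizer (L₀ : Set S), ∀ l ∈ L₀, k⁻¹ * l * k ∈ L₀ := by
    intro k hk l hl
    have := hnorm k⁻¹ (Subgroup.inv_mem _ hk) l hl
    simpa using this
  have key := KL ρ p q c.hp c.hp2 c.hq c.hq2 V L₀ ((T ⊔ Q) ⊓ Subgroup.normalizer (L₀ : Set S))
    (T ⊓ Subgroup.normalizer (L₀ : Set S)) (fixS ρ L₀) hLV c.ab hidx
    (fun k _ v hv => c.nV.conj_mem v hv k) hnorm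
    (inf_le_inf_right _ le_sup_left) (c.hT.to_le inf_le_left) (card_stab c h0 hcov)
    (by
      intro x hx hox
      by_contra hcon
      push Not at hcon
      exact hne (c.ordq x hox L₀ hLV (hnorm x hx) hcon))
    h0.2
    (by
      intro v hv m hm l hl
      have h1 : ρ l (ρ v m) = ρ (l * v) m := by rw [map_mul]; rfl
      rw [h1, c.ab l (hLV hl) v hv, map_mul]
      change ρ v (ρ l m) = ρ v m
      rw [hm l hl])
    (by
      intro k hk m hm l hl
      have h1 : ρ l (ρ k m) = ρ (l * k) m := by rw [map_mul]; rfl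
      have h2 : l * k = k * (k⁻¹ * l * k) := by group
      rw [h1, h2, map_mul]
      change ρ k (ρ (k⁻¹ * l * k) m) = ρ k m
      rw [hm _ (hnorm' k hk l hl)])
    (fun l hl m hm => hm l hl)
    (fun m _ h => c.fixV m h)
  exact key.trans (transfer c hV h0.1)

end Cfsg.Agent.Lib.Helper32.FM
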