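import Cfsg.Agent.Lib.Helper32.FM.Defs
import Cfsg.Agent.Lib.Helper32.FM.KL

set_option autoImplicit false

namespace Cfsg.Agent.Lib.Helper32.FM

open Cfsg.Agent.Lib.Helper25.FrF

variable {S : Type*} [Group S] [Finite S] {E : Type*} [AddCommGroup E] [Module (ZMod 2) E] [Finite E]

/-- ASSEMBLY (imports KL): `|V| = p`.  Apply `KL` with `L = ⊥`, `K = T ⊔ Q`, `M = ⊤`; `hx` from `c.ordq x _ ⊥` (`⊥ ≠ V`). -/
theorem caseP {ρ : Representation (ZMod 2) S E} {p q : ℕ} {V T Q : Subgroup S} (c : Cfg ρ p q V T Q)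
    (hV : Nat.card ↥V = p) : 8 ≤ Nat.card ↥(fixS ρ T) := by
  haveI := c.ntE
  haveI := c.nV
  have hbV : (⊥ : Subgroup S) ≠ V := by
    intro h
    rw [← h, Subgroup.card_bot] at hV
    exact c.hp.one_lt.ne hV
  have h8 := KL ρ p q c.hp c.hp2 c.hq c.hq2 V ⊥ (T ⊔ Q) T ⊤ bot_le c.ab
    (by rw [Subgroup.relIndex_bot_left]; exact hV)
    (fun k _ v hv => c.nV.conj_mem v hv k)
    (fun k _ l hl => by
      rw [Subgroup.mem_bot] at hl ⊢
      rw [hl]; group)
    le_sup_left c.hT c.cK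
    (fun x _ hxo => by
      by_contra hcon
      push_neg at hcon
      exact hbV (c.ordq x hxo ⊥ bot_le (fun l hl => by
        rw [Subgroup.mem_bot] at hl ⊢
        rw [hl]; group) hcon))
    top_ne_bot
    (fun _ _ _ _ => Submodule.mem_top) (fun _ _ _ _ => Submodule.mem_top)
    (fun l hl m _ => by
      rw [Subgroup.mem_bot] at hl
      rw [hl]; simp)
    (fun m _ h => c.fixV m h)
  rwa [top_inf_eq] at h8

end Cfsg.Agent.Lib.Helper32.FM
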