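import Cfsg.Agent.Lib.Helper32.FM.Defs
import Cfsg.Agent.Lib.Helper32.FM.I4
import Cfsg.Agent.Lib.Helper32.FM.SU2
import Cfsg.Agent.Lib.Helper32.FM.C1
import Cfsg.Agent.Lib.Helper32.FM.C2
import Cfsg.Agent.Lib.Helper32.FM.C3
import Cfsg.Agent.Lib.Helper32.FM.C4
import Cfsg.Agent.Lib.Helper32.FM.C5

set_option autoImplicit false

namespace Cfsg.Agent.Lib.Helper32.FM

open Cfsg.Agent.Lib.Helper25.FrF

variable {S : Type*} [Group S] [Finite S] {E : Type*} [AddCommGroup E] [Module (ZMod 2) E] [Finite E]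

theorem CP2_cj_mul (a b : S) (L : Subgroup S) : cj (a * b) L = cj a (cj b L) := by
  unfold cj
  rw [Subgroup.map_map]
  congr 1
  ext x
  simp [mul_assoc]

theorem CP2_cj_one (L : Subgroup S) : cj (1 : S) L = L := by
  unfold cj
  ext x
  simp

theorem CP2_orb_disjoint {T : Subgroup S} {L₀ L₁ : Subgroup S} (h : L₁ ∉ orb T L₀) :
    Disjoint (orb T L₀) (orb T L₁) := by
  rw [Set.disjoint_left]
  rintro L ⟨t, ht, rfl⟩ ⟨t', ht', e⟩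
  apply h
  refine ⟨t'⁻¹ * t, mul_mem (inv_mem ht') ht, ?_⟩
  rw [CP2_cj_mul, e, ← CP2_cj_mul, inv_mul_cancel, CP2_cj_one]

theorem CP2_orb_nonempty (T : Subgroup S) (L : Subgroup S) : (orb T L).Nonempty :=
  ⟨L, 1, one_mem _, (CP2_cj_one L).symm⟩

theorem caseP2 {ρ : Representation (ZMod 2) S E} {p q : ℕ} {V T Q : Subgroup S} (c : Cfg ρ p q V T Q)
    (hV : Nat.card ↥V = p ^ 2) (hexp : ∀ v ∈ V, v ^ p = 1) :
    8 ≤ Nat.card ↥(fixS ρ T) ∨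
      (Nat.card ↥(fixS ρ T) = 4 ∧ ∃ x ∈ Q, ∃ v ∈ fixS ρ T, ρ x v ∉ fixS ρ T) := by
  have := c.ntE
  obtain ⟨e, he⟩ := exists_ne (0 : E)
  obtain ⟨L₀, hL₀⟩ := exists_supp c hV hexp he
  have h0 : L₀ ∈ Occ ρ V p := supp_subset_Occ ρ p V e hL₀
  by_cases h1 : ∀ L ∈ Occ ρ V p, L ∈ orb T L₀
  · exact Or.inl (one_orbit c hV h0 h1)
  push Not at h1
  obtain ⟨L₁, hL₁, hne₁⟩ := h1
  obtain ⟨f₀, hf₀, -, hs₀⟩ := exists_fixed c hV hexp h0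
  obtain ⟨f₁, hf₁, -, hs₁⟩ := exists_fixed c hV hexp hL₁
  by_cases h2 : ∀ L ∈ Occ ρ V p, L ∈ orb T L₀ ∨ L ∈ orb T L₁
  · have h4 : 4 ≤ Nat.card ↥(fixS ρ T) :=
      four_le ρ p V hf₀ hf₁ (hs₀ ▸ CP2_orb_nonempty T L₀) (hs₁ ▸ CP2_orb_nonempty T L₁)
        (by rw [hs₀, hs₁]; exact CP2_orb_disjoint hne₁)
    by_cases h8 : 8 ≤ Nat.card ↥(fixS ρ T)
    · exact Or.inl h8
    · exact Or.inr ⟨card_eq_four _ h4 h8, not_inv c hV hexp h0 hL₁ hne₁ h2⟩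
  push Not at h2
  obtain ⟨L₂, hL₂, hne₂, hne₂'⟩ := h2
  obtain ⟨f₂, hf₂, -, hs₂⟩ := exists_fixed c hV hexp hL₂
  exact Or.inl (eight_le ρ p V hf₀ hf₁ hf₂ (hs₀ ▸ CP2_orb_nonempty T L₀) (hs₁ ▸ CP2_orb_nonempty T L₁)
    (hs₂ ▸ CP2_orb_nonempty T L₂) (by rw [hs₀, hs₁]; exact CP2_orb_disjoint hne₁)
    (by rw [hs₀, hs₂]; exact CP2_orb_disjoint hne₂) (by rw [hs₁, hs₂]; exact CP2_orb_disjoint hne₂'))

end Cfsg.Agent.Lib.Helper32.FM
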