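import Mathlib
import Cfsg.Agent.Lib.Helper25.FrF.Main

/-!
# S4414: definitions (helper32 farm FM)
`fixS ρ H` (helper25) = fixed vectors of the subgroup `H`.
-/

set_option autoImplicit false

namespace Cfsg.Agent.Lib.Helper32.FM

open Cfsg.Agent.Lib.Helper25.FrF

variable {S : Type*} [Group S] {E : Type*} [AddCommGroup E] [Module (ZMod 2) E]

/-- the conjugate `s L s⁻¹` -/
def cj (s : S) (L : Subgroup S) : Subgroup S := L.map (MulAut.conj s).toMonoidHom

/-- the operator `∑_{l ∈ L} ρ l` (for `|L|` odd: the projection onto the fixed vectors of `L`) -/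
noncomputable def eL (ρ : Representation (ZMod 2) S E) (L : Subgroup S) : Module.End (ZMod 2) E :=
  ∑ᶠ l : ↥L, ρ (l : S)

/-- the subgroups of order `p` of `V` -/
def Pts (V : Subgroup S) (p : ℕ) : Set (Subgroup S) := {L | L ≤ V ∧ Nat.card ↥L = p}

/-- the points with nonzero fixed space -/
def Occ (ρ : Representation (ZMod 2) S E) (V : Subgroup S) (p : ℕ) : Set (Subgroup S) :=
  {L | L ∈ Pts V p ∧ fixS ρ L ≠ ⊥}

/-- the support of a vector -/
def supp (ρ : Representation (ZMod 2) S E) (V : Subgroup S) (p : ℕ) (f : E) : Set (Subgroup S) :=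
  {L | L ∈ Pts V p ∧ eL ρ L f ≠ 0}

/-- the `T`-orbit of a point -/
def orb (T : Subgroup S) (L : Subgroup S) : Set (Subgroup S) := {L' | ∃ t ∈ T, L' = cj t L}

/-- standing configuration: `V = S_p`, `T = S_2`, `Q = S_q` -/
structure Cfg (ρ : Representation (ZMod 2) S E) (p q : ℕ) (V T Q : Subgroup S) : Prop where
  hp : p.Prime
  hp2 : p ≠ 2
  hq : q.Prime
  hq2 : q ≠ 2
  nV : V.Normal
  ab : ∀ a ∈ V, ∀ b ∈ V, a * b = b * a
  fixV : ∀ e : E, (∀ v ∈ V, ρ v e = e) → e = 0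
  irr : ∀ N : Submodule (ZMod 2) E, (∀ s : S, ∀ m ∈ N, ρ s m ∈ N) → N = ⊥ ∨ N = ⊤
  top : V ⊔ T ⊔ Q = ⊤
  hT : IsPGroup 2 ↥T
  cQ : Nat.card ↥Q = q
  cK : Nat.card ↥(T ⊔ Q) = q * Nat.card ↥T
  ordq : ∀ x : S, orderOf x = q → ∀ L : Subgroup S, L ≤ V → (∀ l ∈ L, x * l * x⁻¹ ∈ L) →
    (∀ v ∈ V, x * v * x⁻¹ * v⁻¹ ∈ L) → L = V
  ntE : Nontrivial E

/-- the representation induced on the quotient by the kernel -/
def qrep {Y : Type*} [Group Y] {W : Type*} [AddCommGroup W] [Module (ZMod 2) W]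
    (τ : Representation (ZMod 2) Y W) : Representation (ZMod 2) (Y ⧸ MonoidHom.ker τ) W :=
  QuotientGroup.lift (MonoidHom.ker τ) τ (fun _ hg => hg)

@[simp] theorem qrep_mk {Y : Type*} [Group Y] {W : Type*} [AddCommGroup W] [Module (ZMod 2) W]
    (τ : Representation (ZMod 2) Y W) (y : Y) : qrep τ (QuotientGroup.mk y) = τ y := rfl

/-- the image of a subgroup in the quotient by the kernel -/
def qim {Y : Type*} [Group Y] {W : Type*} [AddCommGroup W] [Module (ZMod 2) W]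
    (τ : Representation (ZMod 2) Y W) (H : Subgroup Y) : Subgroup (Y ⧸ MonoidHom.ker τ) :=
  H.map (QuotientGroup.mk' (MonoidHom.ker τ))

end Cfsg.Agent.Lib.Helper32.FM
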