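import Cfsg.Agent.Lib.Helper32.FM.Defs

set_option autoImplicit false

namespace Cfsg.Agent.Lib.Helper32.FM

open Cfsg.Agent.Lib.Helper25.FrF

variable {S : Type*} [Group S] [Finite S] {E : Type*} [AddCommGroup E] [Module (ZMod 2) E] [Finite E]

/-- the fixed vectors of the normal subgroup `V` form an `S`-invariant subspace; by irreducibility it is `⊥` or `⊤`; if `⊤` then `ρ v = 1` for all `v ∈ V`, so `V = ⊥` by `hfaith`. -/
theorem fixV_zero (ρ : Representation (ZMod 2) S E) (V : Subgroup S) (hVn : V.Normal)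
    (hirr : ∀ N : Submodule (ZMod 2) E, (∀ s : S, ∀ m ∈ N, ρ s m ∈ N) → N = ⊥ ∨ N = ⊤)
    (hfaith : ∀ x ∈ V, ρ x = 1 → x = 1) (hV1 : V ≠ ⊥) :
    ∀ e : E, (∀ v ∈ V, ρ v e = e) → e = 0 := by
  let N : Submodule (ZMod 2) E :=
    { carrier := {e | ∀ v ∈ V, ρ v e = e}
      add_mem' := by
        intro a b ha hb v hv
        rw [map_add, ha v hv, hb v hv]
      zero_mem' := by
        intro v _
        exact map_zero _
      smul_mem' := by
        intro c a ha v hv
        rw [map_smul, ha v hv] }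
  have hinv : ∀ s : S, ∀ m ∈ N, ρ s m ∈ N := by
    intro s m hm v hv
    have h1 : s⁻¹ * v * s ∈ V := by
      have := hVn.conj_mem v hv s⁻¹
      simpa using this
    have h2 : ρ (s⁻¹ * v * s) m = m := hm _ h1
    have h3 : v * s = s * (s⁻¹ * v * s) := by group
    calc ρ v (ρ s m) = ρ (v * s) m := by rw [map_mul]; rfl
      _ = ρ (s * (s⁻¹ * v * s)) m := by rw [h3]
      _ = ρ s (ρ (s⁻¹ * v * s) m) := by rw [map_mul]; rfl
      _ = ρ s m := by rw [h2]
  rcases hirr N hinv with h | h
  · intro e he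
    have : e ∈ N := he
    rw [h] at this
    simpa using this
  · exfalso
    apply hV1
    rw [Subgroup.eq_bot_iff_forall]
    intro x hx
    apply hfaith x hx
    ext e
    have : e ∈ N := by rw [h]; trivial
    exact this x hx

end Cfsg.Agent.Lib.Helper32.FM
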