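import Cfsg.Agent.Lib.Helper32.FM.Defs

set_option autoImplicit false

namespace Cfsg.Agent.Lib.Helper32.FM

open Cfsg.Agent.Lib.Helper25.FrF

variable {S : Type*} [Group S] [Finite S] {E : Type*} [AddCommGroup E] [Module (ZMod 2) E] [Finite E]

/-- `|S|` involves only the primes `2, p, q`; the join contains a Sylow subgroup for each of them, so its index is divisible by no prime. -/
theorem top_of_sylow (p q : ℕ) (hp : p.Prime) (hq : q.Prime)
    (hπ : ∀ r : ℕ, r.Prime → r ∣ Nat.card S → r = 2 ∨ r = p ∨ r = q)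
    (S₂ : Sylow 2 S) (Sp : Sylow p S) (Sq : Sylow q S) :
    (Sp : Subgroup S) ⊔ (S₂ : Subgroup S) ⊔ (Sq : Subgroup S) = ⊤ := by
  haveI : Fact p.Prime := ⟨hp⟩
  haveI : Fact q.Prime := ⟨hq⟩
  haveI : Fact (Nat.Prime 2) := ⟨Nat.prime_two⟩
  set J : Subgroup S := (Sp : Subgroup S) ⊔ (S₂ : Subgroup S) ⊔ (Sq : Subgroup S) with hJ
  rw [← Subgroup.index_eq_one]
  by_contra hne
  obtain ⟨r, hr, hrd⟩ := Nat.exists_prime_and_dvd hne
  have hrS : r ∣ Nat.card S := hrd.trans (Subgroup.index_dvd_card J)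
  have key : ∀ (r : ℕ) [Fact r.Prime] (P : Sylow r S), (P : Subgroup S) ≤ J → ¬ r ∣ J.index := by
    intro r _ P hP hd
    exact P.not_dvd_index (hd.trans (Subgroup.index_dvd_of_le hP))
  rcases hπ r hr hrS with rfl | rfl | rfl
  · exact key 2 S₂ (le_sup_of_le_left le_sup_right) hrd
  · exact key r Sp (le_sup_of_le_left le_sup_left) hrd
  · exact key r Sq le_sup_right hrd

end Cfsg.Agent.Lib.Helper32.FM
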