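import Cfsg.Agent.Lib.Helper32.FM.Defs

set_option autoImplicit false

namespace Cfsg.Agent.Lib.Helper32.FM

open Cfsg.Agent.Lib.Helper25.FrF

open scoped commutatorElement

variable {S : Type*} [Group S] [Finite S] {E : Type*} [AddCommGroup E] [Module (ZMod 2) E] [Finite E]

/-- `zpowers x` has order `q = |S_q|`, so it is a conjugate `g S_q g⁻¹` (Sylow), hence `⁅V, zpowers x⁆ = g ⁅V, S_q⁆ g⁻¹ = V` (`V` normal).  On the other hand `x ^ i * v * x ^ (-i) * v⁻¹ ∈ L` for all `i`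
(induction, `x` normalises `L` and `V`), so `⁅V, zpowers x⁆ ≤ L`. -/
theorem ordq_of (q : ℕ) (hq : q.Prime) (V : Subgroup S) (hVn : V.Normal) (Sq : Sylow q S)
    (hSq : Nat.card ↥Sq = q) (hcomm : ⁅V, (Sq : Subgroup S)⁆ = V) :
    ∀ x : S, orderOf x = q → ∀ L : Subgroup S, L ≤ V → (∀ l ∈ L, x * l * x⁻¹ ∈ L) →
      (∀ v ∈ V, x * v * x⁻¹ * v⁻¹ ∈ L) → L = V := by
  haveI : Fact q.Prime := ⟨hq⟩
  intro x hxo L hLV hxL hxV
  -- powers of x
  have hpow : ∀ n : ℕ, ∀ v ∈ V, x ^ n * v * (x ^ n)⁻¹ * v⁻¹ ∈ L := by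
    intro n
    induction n with
    | zero => intro v _; simp
    | succ n ih =>
      intro v hv
      have h1 := hxL _ (ih v hv)
      have h2 := L.mul_mem h1 (hxV v hv)
      have e : x ^ (n + 1) * v * (x ^ (n + 1))⁻¹ * v⁻¹
          = x * (x ^ n * v * (x ^ n)⁻¹ * v⁻¹) * x⁻¹ * (x * v * x⁻¹ * v⁻¹) := by
        rw [pow_succ']; group
      rw [e]; exact h2
  have hz : ∀ y ∈ Subgroup.zpowers x, ∀ v ∈ V, y * v * y⁻¹ * v⁻¹ ∈ L := by
    intro y hy v hv
    have hfin : IsOfFinOrder x := isOfFinOrder_of_finite x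
    obtain ⟨n, rfl⟩ := (hfin.mem_powers_iff_mem_zpowers).2 hy
    exact hpow n v hv
  -- zpowers x is a Sylow subgroup
  have hzp : IsPGroup q ↥(Subgroup.zpowers x) :=
    IsPGroup.of_card (n := 1) (by rw [Nat.card_zpowers, hxo, pow_one])
  obtain ⟨Q, hQ⟩ := hzp.exists_le_sylow
  have hcQ : Nat.card ↥(Q : Subgroup S) = q := by
    have h1 := Sylow.card_eq_multiplicity Q
    have h2 := Sylow.card_eq_multiplicity Sq
    have h3 : Nat.card ↥(Sq : Subgroup S) = q := hSq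
    rw [h1, ← h2, h3]
  have hQeq : Subgroup.zpowers x = (Q : Subgroup S) :=
    Subgroup.eq_of_le_of_card_ge hQ (by rw [hcQ, Nat.card_zpowers, hxo])
  obtain ⟨g, hg⟩ := MulAction.exists_smul_eq S Sq Q
  have hconj : ∀ s ∈ (Sq : Subgroup S), g * s * g⁻¹ ∈ Subgroup.zpowers x := by
    intro s hs
    rw [hQeq, ← hg, Sylow.coe_subgroup_smul]
    have := Subgroup.smul_mem_pointwise_smul s (MulAut.conj g) (Sq : Subgroup S) hs
    simpa [MulAut.smul_def] using this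
  -- conclusion
  refine le_antisymm hLV ?_
  have hle : ⁅V, (Sq : Subgroup S)⁆ ≤ L.comap (MulAut.conj g).toMonoidHom := by
    rw [Subgroup.commutator_le]
    intro v hv s hs
    rw [Subgroup.mem_comap]
    have hv' : g * v * g⁻¹ ∈ V := hVn.conj_mem v hv g
    have h1 := L.inv_mem (hz _ (hconj s hs) _ hv')
    have e : (MulAut.conj g).toMonoidHom ⁅v, s⁆
        = (g * s * g⁻¹ * (g * v * g⁻¹) * (g * s * g⁻¹)⁻¹ * (g * v * g⁻¹)⁻¹)⁻¹ := by
      simp only [MulEquiv.coe_toMonoidHom, MulAut.conj_apply, commutatorElement_def]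
      group
    rw [e]; exact h1
  intro v hv
  have hv' : g⁻¹ * v * g ∈ V := by
    have := hVn.conj_mem v hv g⁻¹
    simpa using this
  rw [← hcomm] at hv'
  have h2 := hle hv'
  rw [Subgroup.mem_comap] at h2
  simpa [MulAut.conj_apply, mul_assoc] using h2

end Cfsg.Agent.Lib.Helper32.FM
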