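import Cfsg.Agent.Lib.Helper32.FM.Defs

set_option autoImplicit false

namespace Cfsg.Agent.Lib.Helper32.FM

open Cfsg.Agent.Lib.Helper25.FrF

variable {S : Type*} [Group S] [Finite S] {E : Type*} [AddCommGroup E] [Module (ZMod 2) E] [Finite E]

/-- groups of order `p` or `p²` are abelian; a minimal normal subgroup of order `p²` has exponent `p` (`{v ∈ V | v ^ p = 1}` is a subgroup of the abelian `V`, normal in `S`, nontrivial by Cauchy). -/
theorem ab_of_card (p : ℕ) (hp : p.Prime) (V : Subgroup S) (h : Nat.card ↥V = p ∨ Nat.card ↥V = p ^ 2) :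
    ∀ a ∈ V, ∀ b ∈ V, a * b = b * a := by
  haveI : Fact p.Prime := ⟨hp⟩
  intro a ha b hb
  have key : ∀ x y : ↥V, x * y = y * x := by
    rcases h with h | h
    · haveI := isCyclic_of_prime_card h
      intro x y
      exact (IsCyclic.isMulCommutative (α := ↥V)).is_comm.comm x y
    · exact IsPGroup.commutative_of_card_eq_prime_sq h
  have := key ⟨a, ha⟩ ⟨b, hb⟩
  exact congrArg Subtype.val this

theorem exp_of_min (p : ℕ) (hp : p.Prime) (V : Subgroup S) (hVn : V.Normal) (hV : Nat.card ↥V = p ^ 2)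
    (hmin : ∀ N : Subgroup S, N.Normal → N ≤ V → N = ⊥ ∨ N = V) : ∀ v ∈ V, v ^ p = 1 := by
  haveI : Fact p.Prime := ⟨hp⟩
  have hab := ab_of_card p hp V (Or.inr hV)
  let N : Subgroup S :=
    { carrier := {v | v ∈ V ∧ v ^ p = 1}
      one_mem' := ⟨V.one_mem, one_pow _⟩
      mul_mem' := by
        rintro a b ⟨ha, ha'⟩ ⟨hb, hb'⟩
        refine ⟨V.mul_mem ha hb, ?_⟩
        rw [(show Commute a b from hab a ha b hb).mul_pow, ha', hb', one_mul]
      inv_mem' := by
        rintro a ⟨ha, ha'⟩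
        exact ⟨V.inv_mem ha, by rw [inv_pow, ha', inv_one]⟩ }
  have hNn : N.Normal :=
    ⟨fun n hn g => ⟨hVn.conj_mem n hn.1 g, by rw [conj_pow, hn.2]; simp⟩⟩
  have hNV : N ≤ V := fun v hv => hv.1
  obtain ⟨x, hx⟩ := exists_prime_orderOf_dvd_card' (G := ↥V) p
    (by rw [hV]; exact dvd_pow_self p two_ne_zero)
  rcases hmin N hNn hNV with h | h
  · exfalso
    have hxN : (x : S) ∈ N := by
      refine ⟨x.2, ?_⟩
      have h1 := pow_orderOf_eq_one x
      rw [hx] at h1
      exact_mod_cast congrArg Subtype.val h1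
    rw [h, Subgroup.mem_bot] at hxN
    have hx1 : x = 1 := Subtype.ext hxN
    rw [hx1, orderOf_one] at hx
    exact hp.one_lt.ne hx
  · intro v hv
    have hvN : v ∈ N := h ▸ hv
    exact hvN.2

end Cfsg.Agent.Lib.Helper32.FM
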